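import Mathlib
import Cfsg.Prelude.Def_LieExceptional
import Cfsg.Prelude.Def_OddOrderLocal
import Cfsg.Agent.Lib.H30.CN2
import Cfsg.Agent.Lib.H30.S36b
import Cfsg.Agent.Lib.H1.FrobSyl

set_option autoImplicit false

/-! Solvable CN-groups. -/

namespace H30.CN

open Cfsg Subgroup H28.RelSyl H28.RelHall

universe u

section
variable {G : Type u} [Group G] [Finite G]

theorem commutes_center (hCN : IsCNGroup G) {p : ℕ} [hp : Fact p.Prime] {P₀ : Subgroup G} [P₀.Normal] (hP₀ : IsPGroup p P₀)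
    {a w : G} (hao : (orderOf a).Coprime p) (hw : w ∈ P₀) (hw1 : w ≠ 1) (haw : a ∈ centralizer ({w} : Set G)) :
    a ∈ centralizer (P₀ : Set G) := by
  have hP₀1 : P₀ ≠ ⊥ := by
    rintro rfl
    exact hw1 (Subgroup.mem_bot.1 hw)
  obtain ⟨z, hz, hz1, hzc⟩ := exists_fixed_pt P₀ P₀ hP₀ hP₀ le_normalizer hP₀1
  have h1 : a ∈ centralizer (zpowers z : Set G) := by
    refine commute_of_cn hCN hw1 (hP₀.to_le ((Subgroup.zpowers_le).2 hz)) ?_ haw hao
    rw [Subgroup.zpowers_le, mem_centralizer_singleton_iff]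
    exact (hzc w hw).symm
  have h2 : a ∈ centralizer ({z} : Set G) := by
    rw [mem_centralizer_singleton_iff]
    exact (h1 z (mem_zpowers z)).symm
  refine commute_of_cn hCN hz1 hP₀ ?_ h2 hao
  intro y hy
  rw [mem_centralizer_singleton_iff]
  exact hzc y hy

theorem fpf_of_cent (hCN : IsCNGroup G) {p : ℕ} [hp : Fact p.Prime] {P₀ : Subgroup G} [P₀.Normal] (hP₀ : IsPGroup p P₀)
    (hC : centralizer (P₀ : Set G) ≤ P₀) {a : G} (ha : a ≠ 1) (hao : (orderOf a).Coprime p) :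
    P₀ ⊓ centralizer ({a} : Set G) = ⊥ := by
  rw [Subgroup.eq_bot_iff_forall]
  rintro w ⟨hw, hwa⟩
  by_contra hw1
  have h1 : a ∈ centralizer ({w} : Set G) := mem_centralizer_singleton_iff.2 (mem_centralizer_singleton_iff.1 hwa).symm
  have h2 := hC (commutes_center hCN hP₀ hao hw hw1 h1)
  apply ha
  obtain ⟨j, hj⟩ := (IsPGroup.iff_orderOf.mp hP₀) ⟨a, h2⟩
  rw [Subgroup.orderOf_mk] at hj
  rw [hj] at hao
  rcases Nat.eq_zero_or_pos j with rfl | hj0
  · rw [pow_zero] at hj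
    exact orderOf_eq_one_iff.1 hj
  · exact absurd hao ((Nat.Prime.not_coprime_iff_dvd).2 ⟨p, hp.out, dvd_pow_self p hj0.ne', dvd_rfl⟩)

/-- no nontrivial `p'`-element commutes modulo `O_p(G)` with an element of order `p` modulo `O_p(G)` -/
theorem not_comm (hCN : IsCNGroup G) {p : ℕ} [hp : Fact p.Prime] {P₀ : Subgroup G} [hn : P₀.Normal] (hP₀ : IsPGroup p P₀) (hP₀1 : P₀ ≠ ⊥)
    (hC : centralizer (P₀ : Set G) ≤ P₀) {x y : G} (hx : x ≠ 1) (hxo : (orderOf x).Coprime p) (hy : y ∉ P₀) (hyp : y ^ p ∈ P₀)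
    (hxy : x * y * x⁻¹ * y⁻¹ ∈ P₀) : False := by
  have hPn : ∀ A : Subgroup G, A ≤ normalizer (P₀ : Set G) := fun A => by
    rw [Subgroup.normalizer_eq_top]; exact le_top
  have hPs : Group.IsSolvable P₀ := by
    have := hP₀.isNilpotent
    infer_instance
  obtain ⟨k, hk⟩ := IsPGroup.iff_card.1 hP₀
  set f := QuotientGroup.mk' P₀ with hf
  have hfk : ∀ g : G, f g = 1 ↔ g ∈ P₀ := fun g => QuotientGroup.eq_one_iff g
  have hcomm : Commute (f x) (f y) := by
    have h1 := (hfk _).2 hxy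
    simp only [map_mul, map_inv] at h1
    rw [mul_inv_eq_one, mul_inv_eq_iff_eq_mul] at h1
    exact h1
  obtain ⟨c, hc, hcN⟩ := H1.Coprime.exists_fixed_in_coset (zpowers x) P₀ (hPn _)
    (by rw [Nat.card_zpowers, hk]; exact Nat.Coprime.pow_right k hxo) (Or.inr hPs) y (by
      rintro a ⟨n, rfl⟩
      rw [← hfk]
      have h2 := hcomm.zpow_left n
      simp only [map_mul, map_inv, map_zpow]
      rw [mul_assoc ((f y)⁻¹), h2.eq]
      group)
  have hfc : f c = f y := by
    have h1 : f (y⁻¹ * c) = 1 := (hfk _).2 hcN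
    rw [map_mul, map_inv] at h1
    exact (inv_mul_eq_one.1 h1).symm
  have hc1 : c ≠ 1 := by
    rintro rfl
    rw [map_one] at hfc
    exact hy ((hfk y).1 hfc.symm)
  have hcp : IsPGroup p (zpowers c) := by
    have h1 : c ^ p ∈ P₀ := by
      rw [← hfk, map_pow, hfc, ← map_pow, hfk]
      exact hyp
    apply IsPGroup.iff_card.2
    rw [Nat.card_zpowers]
    have h2 : orderOf c ∣ p ^ (1 + k) := by
      apply orderOf_dvd_of_pow_eq_one
      rw [pow_add, pow_one, pow_mul]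
      have h3 : (⟨c ^ p, h1⟩ : P₀) ^ Nat.card P₀ = 1 := pow_card_eq_one'
      rw [hk] at h3
      exact congrArg Subtype.val h3
    obtain ⟨j, _, hj⟩ := (Nat.dvd_prime_pow hp.out).1 h2
    exact ⟨j, hj⟩
  obtain ⟨w, hwN, hw1, hwc⟩ := exists_fixed_pt (zpowers c) P₀ hcp hP₀ (hPn _) hP₀1
  have hxc : x ∈ centralizer ({c} : Set G) := by
    rw [mem_centralizer_singleton_iff]
    exact hc x (mem_zpowers x)
  have hxw : x ∈ centralizer (zpowers w : Set G) := by
    refine commute_of_cn hCN hc1 (hP₀.to_le ((Subgroup.zpowers_le).2 hwN)) ?_ hxc hxo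
    rw [Subgroup.zpowers_le, mem_centralizer_singleton_iff]
    exact (hwc c (mem_zpowers c)).symm
  have h1 := fpf_of_cent hCN hP₀ hC hx hxo
  have h2 : w ∈ P₀ ⊓ centralizer ({x} : Set G) := ⟨hwN, by
    exact mem_centralizer_singleton_iff.2 (hxw w (mem_zpowers w))⟩
  rw [h1] at h2
  exact hw1 h2

/-- an involution acting fixed point freely inverts -/
theorem inverts {P₀ : Subgroup G} [hn : P₀.Normal] {t : G} (ht : orderOf t = 2) (hfpf : P₀ ⊓ centralizer ({t} : Set G) = ⊥) :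
    ∀ x ∈ P₀, t * x * t⁻¹ = x⁻¹ := by
  intro x hx
  have h1 : MonoidHom.FixedPointFree (MulAut.conjNormal t : P₀ ≃* P₀) := by
    intro y hy
    have h2 : t * (y : G) * t⁻¹ = y := congrArg Subtype.val hy
    have h3 : (y : G) ∈ P₀ ⊓ centralizer ({t} : Set G) := ⟨y.2, by
      exact mem_centralizer_singleton_iff.2 (mul_inv_eq_iff_eq_mul.1 h2).symm⟩
    rw [hfpf] at h3
    exact Subtype.ext h3
  have h2 : Function.Involutive (MulAut.conjNormal t : P₀ ≃* P₀) := by
    intro y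
    have h3 : t ^ 2 = 1 := by rw [← ht]; exact pow_orderOf_eq_one t
    rw [← MulAut.mul_apply, ← map_mul, ← pow_two, h3, map_one]
    rfl
  have h3 := congrFun (h1.coe_eq_inv_of_involutive h2) ⟨x, hx⟩
  exact congrArg Subtype.val h3

/-- a nilpotent group of odd order acting fixed point freely is cyclic -/
theorem isCyclic_of_nilpotent_odd (E K : Subgroup G) (hK : K ≠ ⊥) (hEK : E ≤ normalizer (K : Set G))
    (hfpf : ∀ a ∈ E, a ≠ 1 → K ⊓ centralizer {a} = ⊥) (hE : Group.IsNilpotent E) (hodd : Odd (Nat.card E)) : IsCyclic E := by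
  have hZ : IsZGroup E := by
    refine ⟨fun s hs S => ?_⟩
    have := Fact.mk hs
    have h1 := H1.FrobSyl.cyclic_or_quaternion ((S : Subgroup E).map E.subtype) K hK ((Subgroup.map_subtype_le _).trans hEK)
      (fun a ha ha1 => hfpf a (Subgroup.map_subtype_le _ ha) ha1) s (S.isPGroup'.map _)
    rcases h1 with h1 | ⟨h1, -⟩
    · exact ((S : Subgroup E).equivMapOfInjective _ E.subtype_injective).isCyclic.2 h1
    · subst h1
      have h2 : ¬ 2 ∣ Nat.card E := by
        rw [← even_iff_two_dvd]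
        exact Nat.not_even_iff_odd.2 hodd
      have h3 : (S : Subgroup E) = ⊥ := by
        rw [← Subgroup.card_eq_one, S.card_eq_multiplicity, Nat.factorization_eq_zero_of_not_dvd h2, pow_zero]
      rw [h3]
      infer_instance
  infer_instance

/-- nilpotent groups acting fixed point freely -/
theorem structure_of_nilpotent_fpf (E K : Subgroup G) (hK : K ≠ ⊥) (hEK : E ≤ normalizer (K : Set G))
    (hfpf : ∀ a ∈ E, a ≠ 1 → K ⊓ centralizer {a} = ⊥) (hE : Group.IsNilpotent E) :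
    IsCyclic E ∨ ∃ C Q : Subgroup G, C ⊔ Q = E ∧ (∀ a ∈ C, ∀ b ∈ Q, a * b = b * a) ∧ IsCyclic C ∧ Odd (Nat.card C) ∧
          ∃ n : ℕ, Nonempty (Q ≃* QuaternionGroup (2 ^ n)) := by
  obtain ⟨Q, hQ⟩ := exists_isSyl 2 E
  have hf2 : Fact (Nat.Prime 2) := ⟨Nat.prime_two⟩
  have hEs : Group.IsSolvable E := inferInstance
  obtain ⟨C, hC⟩ := exists_isPiHallOf {2}ᶜ hEs
  have hCodd : Odd (Nat.card C) := by
    rw [← Nat.not_even_iff_odd, even_iff_two_dvd]
    intro hd
    exact hC.2.1 2 Nat.prime_two hd rfl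
  have hCE : C ≤ E := hC.1
  have hQE : Q ≤ E := hQ.le
  have hCcyc : IsCyclic C := isCyclic_of_nilpotent_odd C K hK (hCE.trans hEK) (fun a ha => hfpf a (hCE ha))
    (nilpotent_of_le hCE hE) hCodd
  have hcomm : ∀ a ∈ C, ∀ b ∈ Q, a * b = b * a := by
    intro a ha b hb
    have h1 : a ∈ centralizer (Q : Set G) := by
      refine H73.Nilp.mem_centralizer_of_le hE hQ.isPGroup hQE (hCE ha) ?_
      refine Nat.Coprime.coprime_dvd_left ?_ (Nat.coprime_comm.1 (Nat.coprime_two_left.2 hCodd))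
      have := orderOf_dvd_natCard (⟨a, ha⟩ : C)
      rwa [Subgroup.orderOf_mk] at this
    exact (h1 b hb).symm
  have hsup : C ⊔ Q = E := by
    apply le_antisymm (sup_le hCE hQE)
    rw [← Subgroup.relIndex_eq_one]
    by_contra hne
    obtain ⟨q, hq, hd⟩ := Nat.exists_prime_and_dvd hne
    by_cases hq2 : q = 2
    · subst hq2
      apply hQ.not_dvd
      rw [← Subgroup.relIndex_mul_relIndex Q (C ⊔ Q) E le_sup_right (sup_le hCE hQE)]
      exact Dvd.dvd.mul_left hd _
    · apply hC.2.2 q hq hq2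
      rw [← Subgroup.relIndex_mul_relIndex C (C ⊔ Q) E le_sup_left (sup_le hCE hQE)]
      exact Dvd.dvd.mul_left hd _
  rcases H1.FrobSyl.cyclic_or_quaternion Q K hK (hQE.trans hEK) (fun a ha => hfpf a (hQE ha)) 2 hQ.isPGroup with h1 | ⟨-, h1⟩
  · left
    have hZ : IsZGroup E := by
      refine ⟨fun s hs S => ?_⟩
      have := Fact.mk hs
      have h2 := H1.FrobSyl.cyclic_or_quaternion ((S : Subgroup E).map E.subtype) K hK ((Subgroup.map_subtype_le _).trans hEK)
        (fun a ha ha1 => hfpf a (Subgroup.map_subtype_le _ ha) ha1) s (S.isPGroup'.map _)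
      rcases h2 with h2 | ⟨h2, -⟩
      · exact ((S : Subgroup E).equivMapOfInjective _ E.subtype_injective).isCyclic.2 h2
      · subst h2
        have h3 := H73.Nilp.sylow_normal (M := E) hQ.toSylow
        have h4 := Sylow.unique_of_normal hQ.toSylow h3
        have h5 : S = hQ.toSylow := Subsingleton.elim _ _
        rw [h5, hQ.coe_toSylow]
        exact (Subgroup.subgroupOfEquivOfLe hQE).isCyclic.2 h1
    infer_instance
  · right
    exact ⟨C, Q, hsup, hcomm, hCcyc, hCodd, h1⟩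

end

end H30.CN
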