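import Mathlib
import Cfsg.Prelude.Def_LieExceptional
import Cfsg.Prelude.Def_OddOrderLocal
import Cfsg.Agent.Lib.H30.CN3

set_option autoImplicit false

/-! Solvable CN-groups: three step groups. -/

namespace H30.CN

open Cfsg Subgroup H28.RelSyl H28.RelHall

universe u

section
variable {G : Type u} [Group G] [Finite G]

/-- in a CN group, a cyclic self-centralizing normal nilpotent subgroup containing all normal nilpotent subgroups -/
theorem centralizer_le_of_cyclic {X : Type*} [Group X] [Finite X] (hCN : IsCNGroup X) (F : Subgroup X) [F.Normal] (hF : IsCyclic F)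
    (hmax : ∀ D : Subgroup X, D.Normal → Group.IsNilpotent D → D ≤ F) {a : X} (ha : a ∈ F) (ha1 : a ≠ 1) :
    centralizer ({a} : Set X) ≤ F := by
  apply hmax _ _ (hCN a ha1)
  obtain ⟨g, hg⟩ := hF.exists_generator
  have key : ∀ z : X, ∃ n : ℤ, z * a * z⁻¹ = a ^ n := by
    intro z
    obtain ⟨n, hn⟩ := Subgroup.mem_zpowers_iff.1 (hg ⟨z * g * z⁻¹, Subgroup.Normal.conj_mem inferInstance _ g.2 z⟩)
    have hn' : z * (g : X) * z⁻¹ = (g : X) ^ n := by
      have := congrArg Subtype.val hn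
      simpa using this.symm
    obtain ⟨m, hm⟩ := Subgroup.mem_zpowers_iff.1 (hg ⟨a, ha⟩)
    have hm' : a = (g : X) ^ m := by
      have := congrArg Subtype.val hm
      simpa using this.symm
    refine ⟨n, ?_⟩
    rw [hm', ← conj_zpow, hn', ← zpow_mul, ← zpow_mul, mul_comm]
  refine ⟨?_⟩
  intro d hd z
  rw [mem_centralizer_singleton_iff] at hd ⊢
  obtain ⟨n, hn⟩ := key z⁻¹
  have h1 : Commute d (z⁻¹ * a * z) := by
    rw [inv_inv] at hn
    rw [hn]
    exact (show Commute d a from hd).zpow_right n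
  have h2 : z * (d * (z⁻¹ * a * z)) * z⁻¹ = z * ((z⁻¹ * a * z) * d) * z⁻¹ := by rw [h1.eq]
  calc z * d * z⁻¹ * a = z * (d * (z⁻¹ * a * z)) * z⁻¹ := by group
    _ = z * ((z⁻¹ * a * z) * d) * z⁻¹ := h2
    _ = a * (z * d * z⁻¹) := by group

theorem coprime_index_of_centralizer_le {X : Type*} [Group X] [Finite X] (F : Subgroup X) [F.Normal]
    (hc : ∀ a ∈ F, a ≠ 1 → centralizer ({a} : Set X) ≤ F) : (Nat.card F).Coprime F.index := by
  apply Nat.coprime_of_dvd
  intro q hq h1 h2
  have := Fact.mk hq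
  obtain ⟨Q⟩ : Nonempty (Sylow q X) := inferInstance
  have hQs : IsSyl q (Q : Subgroup X) ⊤ := isSyl_top Q
  have hQF : IsSyl q ((Q : Subgroup X) ⊓ F) F :=
    hQs.inf_normal (by rw [Subgroup.normalizer_eq_top]) le_top
  obtain ⟨z, hzQ, hz1, hzc⟩ := exists_fixed_pt (Q : Subgroup X) ((Q : Subgroup X) ⊓ F) Q.isPGroup' (Q.isPGroup'.to_le inf_le_left)
    (H1.Coprime2.le_normalizer_inf le_normalizer (by rw [Subgroup.normalizer_eq_top]; exact le_top)) (hQF.ne_bot h1)
  have h3 : (Q : Subgroup X) ≤ F := by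
    refine le_trans ?_ (hc z hzQ.2 hz1)
    intro y hy
    rw [mem_centralizer_singleton_iff]
    exact hzc y hy
  exact Q.not_dvd_index (h2.trans (Subgroup.index_dvd_of_le h3))

theorem three_step (hCN : IsCNGroup G) (hsolv : Group.IsSolvable G) (p : ℕ) [hp : Fact p.Prime] (hPbot : pCore p G ≠ ⊥)
    (hC : centralizer (pCore p G : Set G) ≤ pCore p G) (hd : p ∣ (pCore p G).index) : IsThreeStepGroup p G := by
  classical
  set P₀ := pCore p G with hP₀def
  have hP₀ : IsPGroup p P₀ := H1.Cores.isPGroup_pCore p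
  obtain ⟨k, hk⟩ := IsPGroup.iff_card.1 hP₀
  have hP₀s : Group.IsSolvable P₀ := inferInstance
  set f := QuotientGroup.mk' P₀ with hf
  have hfs : Function.Surjective f := QuotientGroup.mk'_surjective P₀
  have hfk : ∀ g : G, f g = 1 ↔ g ∈ P₀ := fun g => QuotientGroup.eq_one_iff g
  have hCN' : IsCNGroup (G ⧸ P₀) := main_aux _ G hCN P₀ hP₀s rfl
  -- an element of order `p` in the quotient
  have hdq : p ∣ Nat.card (G ⧸ P₀) := by rwa [← Subgroup.index_eq_card]
  obtain ⟨yb, hyb⟩ := exists_prime_orderOf_dvd_card' (G := G ⧸ P₀) p hdq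
  have hybp : yb ^ p = 1 := by
    have := pow_orderOf_eq_one yb
    rwa [hyb] at this
  have hyb1 : yb ≠ 1 := by
    rintro rfl
    rw [orderOf_one] at hyb
    exact hp.out.one_lt.ne hyb
  -- no `p'`-element commutes with an element of order `p` of the quotient
  have hnc : ∀ x : G, x ≠ 1 → (orderOf x).Coprime p → ∀ yb : G ⧸ P₀, yb ≠ 1 → yb ^ p = 1 → ¬ Commute (f x) yb := by
    intro x hx hxo yb hyb1 hybp hcomm
    obtain ⟨y, rfl⟩ := hfs yb
    refine not_comm hCN hP₀ hPbot hC hx hxo (y := y) (fun h => hyb1 ((hfk y).2 h)) ?_ ?_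
    · rw [← hfk, map_pow]; exact hybp
    · rw [← hfk]
      simp only [map_mul, map_inv]
      rw [hcomm.eq]; group
  have hpbot : pCore p (G ⧸ P₀) = ⊥ := H1.Cores.pCore_quotient_pCore p
  -- the Fitting subgroup of the quotient
  set Fb := fittingSubgroup (G ⧸ P₀) with hFb
  have hFbn : Fb.Normal := inferInstance
  have hFbnil : Group.IsNilpotent Fb := H1.Cores.isNilpotent_fittingSubgroup
  have hFbc : centralizer (Fb : Set (G ⧸ P₀)) ≤ Fb := H1.Solv.centralizer_fitting_le inferInstance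
  have hFbmax : ∀ D : Subgroup (G ⧸ P₀), D.Normal → Group.IsNilpotent D → D ≤ Fb := fun D hD hDn =>
    H1.Cores.le_fittingSubgroup hD hDn
  have hFbp : (Nat.card Fb).Coprime p := by
    have h1 : Fb ≤ pPrimeCore p (G ⧸ P₀) := by
      rw [hFb, H1.Cores.fittingSubgroup_eq_iSup_pCore]
      refine iSup_le fun q => ?_
      by_cases hq : (q : ℕ) = p
      · rw [hq, hpbot]; exact bot_le
      · apply H1.Cores.le_pPrimeCore inferInstance
        have := Fact.mk q.2
        obtain ⟨k, hk⟩ := IsPGroup.iff_card.1 (H1.Cores.isPGroup_pCore (G := G ⧸ P₀) (q : ℕ))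
        rw [hk]
        exact Nat.Coprime.pow_left k ((Nat.coprime_primes q.2 hp.out).2 hq)
    exact Nat.Coprime.coprime_dvd_left (Subgroup.card_dvd_of_le h1) (H1.Cores.coprime_card_pPrimeCore p)
  have hFbbot : Fb ≠ ⊥ := by
    intro h0
    rw [h0] at hFbc
    have h1 : yb ∈ centralizer ((⊥ : Subgroup (G ⧸ P₀)) : Set (G ⧸ P₀)) := by
      intro z hz
      rw [SetLike.mem_coe, Subgroup.mem_bot] at hz
      rw [hz, one_mul, mul_one]
    exact hyb1 (Subgroup.mem_bot.1 (hFbc h1))
  set L := Fb.comap f with hL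
  have hLn : L.Normal := inferInstance
  have hP₀L : P₀ ≤ L := by
    intro x hx
    show f x ∈ Fb
    rw [(hfk x).2 hx]; exact one_mem _
  have hLmap : L.map f = Fb := Subgroup.map_comap_eq_self_of_surjective hfs Fb
  obtain ⟨A, hA⟩ := exists_isPiHallOf {p}ᶜ (H := L) inferInstance
  have hAL : A ≤ L := hA.1
  have hAp : (Nat.card A).Coprime p := by
    rw [Nat.coprime_comm]
    exact (Nat.Prime.coprime_iff_not_dvd hp.out).2 fun hd => hA.2.1 p hp.out hd rfl
  have hPA : P₀ ⊔ A = L := by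
    apply le_antisymm (sup_le hP₀L hAL)
    rw [← Subgroup.relIndex_eq_one]
    by_contra hne
    obtain ⟨q, hq, hd⟩ := Nat.exists_prime_and_dvd hne
    have h1 : q ∣ A.relIndex L := by
      rw [← Subgroup.relIndex_mul_relIndex A (P₀ ⊔ A) L le_sup_right (sup_le hP₀L hAL)]
      exact Dvd.dvd.mul_left hd _
    have h2 : q ∣ P₀.relIndex L := by
      rw [← Subgroup.relIndex_mul_relIndex P₀ (P₀ ⊔ A) L le_sup_left (sup_le hP₀L hAL)]
      exact Dvd.dvd.mul_left hd _
    have h3 : P₀.relIndex L = Nat.card Fb := by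
      have h4 := relIndex_mul_card hP₀L
      have h6 : Nat.card L = Nat.card P₀ * Nat.card Fb := H1.Cores.card_comap_mk' P₀ Fb
      rw [h6, mul_comm] at h4
      exact Nat.eq_of_mul_eq_mul_left Nat.card_pos h4
    rw [h3] at h2
    by_cases hqp : q = p
    · rw [hqp] at h2
      exact (Nat.Prime.coprime_iff_not_dvd hp.out).1 hFbp.symm h2
    · exact hA.2.2 q hq hqp h1
  have hAmap : A.map f = Fb := by
    rw [← hLmap, ← hPA, Subgroup.map_sup]
    have h3 : P₀.map f = ⊥ := by
      rw [Subgroup.map_eq_bot_iff, hf, QuotientGroup.ker_mk']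
    rw [h3, bot_sup_eq]
  have hPAbot : P₀ ⊓ A = ⊥ := H1.Cores.disjoint_of_isPGroup hP₀ hAp
  have hAinj : ∀ a ∈ A, f a = 1 → a = 1 := by
    intro a ha hfa
    have h1 : a ∈ P₀ ⊓ A := ⟨(hfk a).1 hfa, ha⟩
    rwa [hPAbot, Subgroup.mem_bot] at h1
  -- `A ≃ Fb`
  have hinj : Function.Injective (f.subgroupMap A) := by
    rw [injective_iff_map_eq_one]
    intro a ha
    exact Subtype.ext (hAinj a a.2 (congrArg Subtype.val ha))
  let e : A ≃* (A.map f : Subgroup (G ⧸ P₀)) := MulEquiv.ofBijective (f.subgroupMap A) ⟨hinj, MonoidHom.subgroupMap_surjective f A⟩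
  have hAnil : Group.IsNilpotent A := by
    have h1 : Group.IsNilpotent (A.map f) := by rw [hAmap]; exact hFbnil
    exact Group.nilpotent_of_mulEquiv e.symm
  have hAo : ∀ a ∈ A, (orderOf a).Coprime p := by
    intro a ha
    refine Nat.Coprime.coprime_dvd_left ?_ hAp
    have := orderOf_dvd_natCard (⟨a, ha⟩ : A)
    rwa [Subgroup.orderOf_mk] at this
  have hfpf : ∀ a ∈ A, a ≠ 1 → P₀ ⊓ centralizer ({a} : Set G) = ⊥ := fun a ha ha1 =>
    fpf_of_cent hCN hP₀ hC ha1 (hAo a ha)
  have hAbot : A ≠ ⊥ := by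
    intro h0
    rw [h0, Subgroup.map_bot] at hAmap
    exact hFbbot hAmap.symm
  have hAodd : Odd (Nat.card A) := by
    rw [← Nat.not_even_iff_odd, even_iff_two_dvd]
    intro h2
    obtain ⟨t, ht⟩ := exists_prime_orderOf_dvd_card' (G := A) 2 h2
    have hto : orderOf (t : G) = 2 := by rw [Subgroup.orderOf_coe]; exact ht
    have hinv := inverts (P₀ := P₀) hto (hfpf t t.2 (by
      intro h0
      rw [h0, orderOf_one] at hto
      exact absurd hto (by decide)))
    obtain ⟨y, rfl⟩ := hfs yb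
    have ht1 : (t : G) ≠ 1 := by
      intro h0
      rw [h0, orderOf_one] at hto
      exact absurd hto (by decide)
    refine hnc t ht1 (hAo t t.2) (f y) hyb1 hybp ?_
    -- `y t y⁻¹ t⁻¹` centralizes `P₀`
    have ht2 : (t : G) * t = 1 := by
      have := pow_orderOf_eq_one (t : G)
      rwa [hto, pow_two] at this
    have htinv : (t : G)⁻¹ = t := inv_eq_of_mul_eq_one_left ht2
    have h1 : y * t * y⁻¹ * (t : G)⁻¹ ∈ P₀ := by
      apply hC
      intro x hx
      have hx1 : y⁻¹ * x⁻¹ * y ∈ P₀ := by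
        have := Subgroup.Normal.conj_mem (inferInstance : P₀.Normal) x⁻¹ (P₀.inv_mem hx) y⁻¹
        simpa using this
      have e1 : (t : G)⁻¹ * x * t = x⁻¹ := by
        have := hinv x hx
        rw [htinv] at this ⊢
        exact this
      have e2 : t * (y⁻¹ * x⁻¹ * y) * (t : G)⁻¹ = y⁻¹ * x * y := by
        rw [hinv _ hx1]; group
      have e3 : (y * t * y⁻¹ * (t : G)⁻¹) * x * (y * t * y⁻¹ * (t : G)⁻¹)⁻¹ = x := by
        have : (y * t * y⁻¹ * (t : G)⁻¹) * x * (y * t * y⁻¹ * (t : G)⁻¹)⁻¹ =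
            y * (t * (y⁻¹ * ((t : G)⁻¹ * x * t) * y) * (t : G)⁻¹) * y⁻¹ := by group
        rw [this, e1, e2]; group
      exact (mul_inv_eq_iff_eq_mul.1 e3).symm
    have h2 := (hfk _).2 h1
    simp only [map_mul, map_inv] at h2
    rw [mul_inv_eq_one, mul_inv_eq_iff_eq_mul] at h2
    exact h2.symm
  have hAn : A ≤ normalizer (P₀ : Set G) := by rw [Subgroup.normalizer_eq_top]; exact le_top
  have hAcyc : IsCyclic A := isCyclic_of_nilpotent_odd A P₀ hPbot hAn hfpf hAnil hAodd
  have hFbcyc : IsCyclic Fb := by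
    rw [← hAmap]
    exact e.isCyclic.1 hAcyc
  have hcent : ∀ a ∈ Fb, a ≠ 1 → centralizer ({a} : Set (G ⧸ P₀)) ≤ Fb := fun a ha ha1 =>
    centralizer_le_of_cyclic hCN' Fb hFbcyc hFbmax ha ha1
  have hcopF := coprime_index_of_centralizer_le Fb hcent
  refine ⟨hPbot, A, hAbot, hAcyc, hAodd, hAp, by rw [hPA]; exact hLn, ?_, ?_, hfpf, ?_⟩
  · -- `L ≠ ⊤`
    rw [hPA]
    intro h0
    have h1 : Fb = ⊤ := by
      rw [← hLmap, h0, Subgroup.map_top_of_surjective _ hfs]
    rw [h1, Subgroup.card_top] at hFbp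
    exact (Nat.Prime.coprime_iff_not_dvd hp.out).1 hFbp.symm hdq
  · -- the index is a power of `p`
    rw [hPA, hL, Subgroup.index_comap_of_surjective _ hfs]
    refine ⟨_, Nat.eq_prime_pow_of_unique_prime_dvd Subgroup.index_ne_zero_of_finite ?_⟩
    intro r hr hrd
    by_contra hrp
    have := Fact.mk hr
    obtain ⟨B, hB⟩ := Subgroup.exists_right_complement'_of_coprime hcopF
    have hBcard : Nat.card B = Fb.index := hB.symm.index_eq_card.symm
    have hBcomm : ∀ a ∈ B, ∀ b ∈ B, Commute a b := by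
      intro a ha b hb
      have h1 : a * b * a⁻¹ * b⁻¹ ∈ commutator (G ⧸ P₀) := by
        rw [_root_.commutator_def]
        have := Subgroup.commutator_mem_commutator (Subgroup.mem_top a) (Subgroup.mem_top b)
        rwa [commutatorElement_def] at this
      have h2 := hFbc (S36.commutator_le_centralizer_of_cyclic Fb hFbcyc h1)
      have h3 : a * b * a⁻¹ * b⁻¹ ∈ Fb ⊓ B := ⟨h2, B.mul_mem (B.mul_mem (B.mul_mem ha hb) (B.inv_mem ha)) (B.inv_mem hb)⟩
      rw [hB.disjoint.eq_bot, Subgroup.mem_bot, mul_inv_eq_one, mul_inv_eq_iff_eq_mul] at h3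
      exact h3
    have hpB : p ∣ Nat.card B := by
      rw [hBcard]
      have h1 : Nat.card Fb * Fb.index = Nat.card (G ⧸ P₀) := Subgroup.card_mul_index Fb
      rw [← h1] at hdq
      exact (Nat.Coprime.dvd_mul_left hFbp.symm).1 hdq
    obtain ⟨xb, hxb⟩ := exists_prime_orderOf_dvd_card' (G := B) r (by rw [hBcard]; exact hrd)
    obtain ⟨yb', hyb'⟩ := exists_prime_orderOf_dvd_card' (G := B) p hpB
    have hxbo : orderOf (xb : G ⧸ P₀) = r := by rw [Subgroup.orderOf_coe]; exact hxb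
    have hybo : orderOf (yb' : G ⧸ P₀) = p := by rw [Subgroup.orderOf_coe]; exact hyb'
    obtain ⟨x₀, hx₀⟩ := hfs (xb : G ⧸ P₀)
    have hx₀r : x₀ ^ r ∈ P₀ := by
      rw [← hfk, map_pow, hx₀, ← hxbo]; exact pow_orderOf_eq_one _
    set x := x₀ ^ (p ^ k) with hx
    have hxr : x ^ r = 1 := by
      rw [hx, ← pow_mul, mul_comm, pow_mul]
      have h3 : (⟨x₀ ^ r, hx₀r⟩ : P₀) ^ Nat.card P₀ = 1 := pow_card_eq_one'
      rw [hk] at h3
      exact congrArg Subtype.val h3
    have hfx : f x = (xb : G ⧸ P₀) ^ (p ^ k) := by rw [hx, map_pow, hx₀]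
    have hx1 : x ≠ 1 := by
      intro h0
      rw [h0, map_one] at hfx
      have h1 := orderOf_dvd_of_pow_eq_one hfx.symm
      rw [hxbo] at h1
      exact hrp ((Nat.prime_dvd_prime_iff_eq hr hp.out).1 (hr.dvd_of_dvd_pow h1))
    refine hnc x hx1 ?_ (yb' : G ⧸ P₀) ?_ ?_ ?_
    · exact Nat.Coprime.coprime_dvd_left (orderOf_dvd_of_pow_eq_one hxr) ((Nat.coprime_primes hr hp.out).2 hrp)
    · intro h0
      rw [h0, orderOf_one] at hybo
      exact hp.out.one_lt.ne hybo
    · have := pow_orderOf_eq_one (yb' : G ⧸ P₀)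
      rwa [hybo] at this
    · rw [hfx]
      exact (hBcomm _ xb.2 _ yb'.2).pow_left _
  · -- the last condition
    intro x hx a ha ha1 hxa
    apply hx
    rw [hPA]
    show f x ∈ Fb
    have hfa1 : f a ≠ 1 := fun h0 => ha1 (hAinj a ha h0)
    have hfa : f a ∈ Fb := by rw [← hAmap]; exact ⟨a, ha, rfl⟩
    apply hcent (f a) hfa hfa1
    have h2 := (hfk _).2 hxa
    simp only [map_mul, map_inv] at h2
    rw [mul_inv_eq_one, mul_inv_eq_iff_eq_mul] at h2
    rw [mem_centralizer_singleton_iff]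
    exact h2

/-- S1476 -/
theorem solvable_cn (hsolv : Group.IsSolvable G) (hCN : IsCNGroup G) :
    Group.IsNilpotent G ∨
      (∃ K E : Subgroup G, K.Normal ∧ Subgroup.IsComplement' K E ∧ Cfsg.IsFrobeniusComplement E ∧
        (IsCyclic E ∨ ∃ C Q : Subgroup G, C ⊔ Q = E ∧ (∀ a ∈ C, ∀ b ∈ Q, a * b = b * a) ∧ IsCyclic C ∧ Odd (Nat.card C) ∧
          ∃ n : ℕ, Nonempty (↥Q ≃* QuaternionGroup (2 ^ n)))) ∨
      ∃ p : ℕ, p.Prime ∧ Cfsg.IsThreeStepGroup p G := by
  classical
  by_cases hnn : Group.IsNilpotent G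
  · exact Or.inl hnn
  right
  by_cases hcase : ∃ (p : ℕ) (_ : Fact p.Prime) (P : Sylow p G), (P : Subgroup G) ≠ ⊥ ∧ (P : Subgroup G).Normal
  · left
    obtain ⟨p, hp, P, hP1, hPn⟩ := hcase
    obtain ⟨h1, h2, ⟨E, hE1, hE2, hE3, hE4, hE5⟩, h4⟩ := normal_sylow hCN hnn p P hP1 hPn
    refine ⟨fittingHall G, E, inferInstance, hE1, hE2, ?_⟩
    exact structure_of_nilpotent_fpf E (fittingHall G) h1 (by rw [Subgroup.normalizer_eq_top]; exact le_top) hE3 hE5
  · right
    push Not at hcase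
    have hbot : (⊤ : Subgroup G) ≠ ⊥ := by
      intro h1
      apply hnn
      have h2 : Subsingleton G := by
        rw [← Subgroup.subsingleton_iff]
        exact subsingleton_of_bot_eq_top h1.symm
      infer_instance
    obtain ⟨N, ⟨hNn, hNbot⟩, hNmin'⟩ := (Set.toFinite {N : Subgroup G | N.Normal ∧ N ≠ ⊥}).exists_minimal
      ⟨⊤, inferInstance, hbot⟩
    have hNmin : ∀ M : Subgroup G, M.Normal → M ≤ N → M = ⊥ ∨ M = N := by
      intro M hM hMN
      by_cases h : M = ⊥
      · exact Or.inl h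
      · exact Or.inr (le_antisymm hMN (hNmin' ⟨hM, h⟩ hMN))
    obtain ⟨p, hp, hNel⟩ := H30.FrobAct.min_elem N inferInstance hNbot hNmin
    have := Fact.mk hp
    have hNp : IsPGroup p N := fun x => ⟨1, by
      rw [pow_one]
      ext
      exact hNel.2 x x.2⟩
    have hNle : N ≤ pCore p G := H1.Cores.le_pCore hNn hNp
    have hPbot : pCore p G ≠ ⊥ := by
      intro h0
      apply hNbot
      rw [eq_bot_iff, ← h0]; exact hNle
    have hpP : p ∣ Nat.card (pCore p G) := by
      obtain ⟨k, hk⟩ := IsPGroup.iff_card.1 (H1.Cores.isPGroup_pCore (G := G) p)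
      rw [hk]
      apply dvd_pow_self
      rintro rfl
      rw [pow_zero] at hk
      exact hPbot (Subgroup.card_eq_one.1 hk)
    have hother : ∀ q : ℕ, q.Prime → q ≠ p → pCore q G = ⊥ := by
      intro q hq hqp
      by_contra hne
      have := Fact.mk hq
      have hcent : pCore p G ≤ centralizer (pCore q G : Set G) := by
        rw [← Subgroup.commutator_eq_bot_iff_le_centralizer, eq_bot_iff]
        have h1 : pCore p G ⊓ pCore q G = ⊥ :=
          (IsPGroup.disjoint_of_ne p q (Ne.symm hqp) _ _ (H1.Cores.isPGroup_pCore p) (H1.Cores.isPGroup_pCore q)).eq_bot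
        rw [← h1]
        exact Subgroup.commutator_le_inf _ _
      obtain ⟨P⟩ : Nonempty (Sylow p G) := inferInstance
      have h1 := sylow_normal_of_centralizes hCN q (pCore q G) (H1.Cores.isPGroup_pCore q) hne p (Ne.symm hqp)
        (hpP.trans (Subgroup.card_dvd_of_le hcent)) P
      refine hcase p inferInstance P ?_ h1
      intro h0
      apply hPbot
      rw [eq_bot_iff, ← h0]
      exact H1.Cores.pCore_le_sylow P
    have hfit : fittingSubgroup G ≤ pCore p G := by
      rw [H1.Cores.fittingSubgroup_eq_iSup_pCore]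
      refine iSup_le fun q => ?_
      by_cases hq : (q : ℕ) = p
      · rw [hq]
      · rw [hother q q.2 hq]; exact bot_le
    have hC : centralizer (pCore p G : Set G) ≤ pCore p G :=
      (Subgroup.centralizer_le hfit).trans ((H1.Solv.centralizer_fitting_le hsolv).trans hfit)
    refine ⟨p, hp, three_step hCN hsolv p hPbot hC ?_⟩
    by_contra hnd
    obtain ⟨P⟩ : Nonempty (Sylow p G) := inferInstance
    have h1 : (P : Subgroup G) = pCore p G := by
      have h2 : IsSyl p (pCore p G) ⊤ := ⟨le_top, H1.Cores.isPGroup_pCore p, by rwa [Subgroup.relIndex_top_right]⟩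
      exact h2.eq_of_le P.isPGroup' (H1.Cores.pCore_le_sylow P) le_top
    exact hcase p inferInstance P (by rw [h1]; exact hPbot) (by rw [h1]; infer_instance)

end

end H30.CN
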