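import Mathlib
import Cfsg.Prelude.Def_FusionSystem
import Cfsg.Agent.Lib.H89.Normal2
import Cfsg.Agent.Lib.H53.SPE

set_option autoImplicit false
set_option linter.unusedSectionVars false

/-! Strongly closed generalized extraspecial subgroups (S5233). -/

namespace H30.SCX

open Cfsg Cfsg.FusionSystem H86.FusBasic H86.FusSat H86.FusAlperin H89.Normal H89.Normal2
open scoped commutatorElement

/-- automorphisms stabilizing a chain generate a `p`-group -/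
theorem chain_isPGroup {R : Type*} [Group R] [Finite R] {p : ℕ} [hp : Fact p.Prime] (hR : IsPGroup p R)
    (d : ℕ → Subgroup R) (n : ℕ) (hd0 : d 0 = ⊥) (hdn : d n = ⊤) (hmono : ∀ i, d i ≤ d (i + 1))
    (T : Set (MulAut R)) (hT : ∀ β ∈ T, ∀ i < n, ∀ x ∈ d (i + 1), x⁻¹ * β x ∈ d i) :
    IsPGroup p (Subgroup.closure T) := by
  have hfin : Finite (MulAut R) := finite_mulAut R
  have hinv : ∀ β : MulAut R, (∀ i < n, ∀ x ∈ d (i + 1), x⁻¹ * β x ∈ d i) → ∀ i ≤ n, ∀ x ∈ d i, β x ∈ d i := by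
    intro β hβ i hi x hx
    cases i with
    | zero =>
      rw [hd0, Subgroup.mem_bot] at hx ⊢
      rw [hx, map_one]
    | succ i =>
      have h1 := hmono i (hβ i hi x hx)
      have h2 : β x = x * (x⁻¹ * β x) := by group
      rw [h2]
      exact mul_mem hx h1
  have hmul : ∀ α β : MulAut R, (∀ i < n, ∀ x ∈ d (i + 1), x⁻¹ * α x ∈ d i) →
      (∀ i < n, ∀ x ∈ d (i + 1), x⁻¹ * β x ∈ d i) → (∀ i < n, ∀ x ∈ d (i + 1), x⁻¹ * (α * β) x ∈ d i) := by
    intro α β hα hβ i hi x hx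
    have h1 : x⁻¹ * (α * β) x = (x⁻¹ * α x) * α (x⁻¹ * β x) := by
      rw [map_mul, map_inv, MulAut.mul_apply]; group
    rw [h1]
    exact mul_mem (hα i hi x hx) (hinv α hα i hi.le _ (hβ i hi x hx))
  have hone : ∀ i < n, ∀ x ∈ d (i + 1), x⁻¹ * (1 : MulAut R) x ∈ d i := by
    intro i hi x hx
    rw [MulAut.one_apply, inv_mul_cancel]; exact one_mem _
  have hpow : ∀ β : MulAut R, (∀ i < n, ∀ x ∈ d (i + 1), x⁻¹ * β x ∈ d i) → ∀ k : ℕ,
      (∀ i < n, ∀ x ∈ d (i + 1), x⁻¹ * (β ^ k) x ∈ d i) := by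
    intro β hβ k
    induction k with
    | zero => rw [pow_zero]; exact hone
    | succ k ih => rw [pow_succ]; exact hmul _ _ ih hβ
  have hall : ∀ β ∈ Subgroup.closure T, ∀ i < n, ∀ x ∈ d (i + 1), x⁻¹ * β x ∈ d i := by
    intro β hβ
    induction hβ using Subgroup.closure_induction with
    | mem β hβ => exact hT β hβ
    | one => exact hone
    | mul α β _ _ hα hβ => exact hmul α β hα hβ
    | inv β _ hβ =>
      have h1 : β⁻¹ = β ^ (orderOf β - 1) := by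
        rw [inv_eq_iff_mul_eq_one, ← pow_succ', Nat.sub_add_cancel (orderOf_pos β), pow_orderOf_eq_one]
      rw [h1]
      exact hpow β hβ _
  refine isPGroup_of_coprime ?_
  rintro ⟨β, hβ⟩ hord
  rw [Subgroup.orderOf_mk] at hord
  have h1 : ∀ i ≤ n, ∀ x ∈ d i, β x = x := by
    intro i
    induction i with
    | zero =>
      intro _ x hx
      rw [hd0, Subgroup.mem_bot] at hx
      rw [hx, map_one]
    | succ i ih =>
      intro hi x hx
      exact coprime_fix hR hord (ih (Nat.le_of_succ_le hi) _ (hall β hβ i hi x hx))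
  apply Subtype.ext
  refine MulEquiv.ext fun x => ?_
  exact h1 n le_rfl x (by rw [hdn]; trivial)

theorem spe_exists {X : Type*} [Group X] [Finite X] {p : ℕ} [hp : Fact p.Prime] {N : Subgroup X} [hNn : N.Normal]
    {E : Subgroup (X ⧸ N)} (hE : IsStronglyPEmbedded p E) {B : Subgroup X}
    (hB : IsPGroup p B) :
    ∃ a : X, ∀ b ∈ B, ∀ b' ∈ B, b ∉ N → b' ∉ N → ¬ IsPGroup p (Subgroup.closure ({b, a * b' * a⁻¹} : Set X)) := by
  by_contra hcon
  push Not at hcon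
  set π := QuotientGroup.mk' N with hπ
  have hπs : Function.Surjective π := QuotientGroup.mk'_surjective N
  have hker : ∀ x, π x = 1 ↔ x ∈ N := fun x => QuotientGroup.eq_one_iff x
  obtain ⟨P, hPE, hP1, -⟩ := H53.SPE.spe_unpack hE
  obtain ⟨P', hP'⟩ := (hB.map π).exists_le_sylow
  obtain ⟨g, hg⟩ := MulAction.exists_smul_eq (X ⧸ N) P' P
  have hgB : ∀ b ∈ B, g * π b * g⁻¹ ∈ E := by
    intro b hb
    apply hPE
    rw [← hg]
    have h1 : π b ∈ (P' : Subgroup (X ⧸ N)) := hP' ⟨b, hb, rfl⟩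
    rw [Sylow.coe_subgroup_smul]
    exact Subgroup.smul_mem_pointwise_smul _ (MulAut.conj g) _ h1
  obtain ⟨g0, hg0⟩ := hπs g
  apply hE.2.1
  rw [eq_top_iff]
  intro ab _
  obtain ⟨a0, rfl⟩ := hπs ab
  obtain ⟨b, hb, b', hb', hbN, hb'N, hQ⟩ := hcon (g0⁻¹ * a0 * g0)
  set Q := Subgroup.closure ({b, g0⁻¹ * a0 * g0 * b' * (g0⁻¹ * a0 * g0)⁻¹} : Set X) with hQdef
  set f : X →* X ⧸ N := π.comp (MulAut.conj g0).toMonoidHom with hf
  have hQf : IsPGroup p (Q.map f) := hQ.map f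
  have h1 : f b ∈ Q.map f := ⟨b, Subgroup.subset_closure (by simp), rfl⟩
  have h1E : f b ∈ E := by
    have : f b = g * π b * g⁻¹ := by rw [hf, ← hg0]; simp
    rw [this]; exact hgB b hb
  have h1ne : f b ≠ 1 := by
    intro h
    have h2 : f b = g * π b * g⁻¹ := by rw [hf, ← hg0]; simp
    rw [h2, mul_inv_eq_one, mul_eq_left, hker] at h
    exact hbN h
  have hQE : Q.map f ≤ E := H53.SPE.spe_le_of_inter hE hQf (by
    intro h
    have h2 : f b ∈ Q.map f ⊓ E := ⟨h1, h1E⟩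
    rw [h, Subgroup.mem_bot] at h2
    exact h1ne h2)
  have h3 : f (g0⁻¹ * a0 * g0 * b' * (g0⁻¹ * a0 * g0)⁻¹) ∈ E :=
    hQE ⟨_, Subgroup.subset_closure (by simp), rfl⟩
  have h4 : f (g0⁻¹ * a0 * g0 * b' * (g0⁻¹ * a0 * g0)⁻¹) = π a0 * (g * π b' * g⁻¹) * (π a0)⁻¹ := by
    rw [hf, ← hg0]
    simp only [MonoidHom.comp_apply, MulEquiv.coe_toMonoidHom, MulAut.conj_apply, ← map_mul, ← map_inv]
    congr 1
    group
  rw [h4] at h3
  set c := g * π b' * g⁻¹ with hc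
  have hcE : c ∈ E := hgB b' hb'
  have hc1 : c ≠ 1 := by
    intro h
    rw [hc, mul_inv_eq_one, mul_eq_left, hker] at h
    exact hb'N h
  have hcp : IsPGroup p (Subgroup.zpowers c) := by
    have h5 : IsPGroup p (B.map f) := hB.map f
    refine h5.to_le ?_
    rw [Subgroup.zpowers_le]
    exact ⟨b', hb', by rw [hf, hc, ← hg0]; simp⟩
  refine H53.SPE.spe_mem_of_conj hE hcp (by rw [Ne, Subgroup.zpowers_eq_bot]; exact hc1)
    (by rw [Subgroup.zpowers_le]; exact hcE) ?_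
  rintro q ⟨k, rfl⟩
  have h6 : π a0 * c ^ k * (π a0)⁻¹ = (π a0 * c * (π a0)⁻¹) ^ k := conj_zpow.symm
  simp only
  rw [h6]
  exact E.zpow_mem h3 k

theorem exists_norm {Ω : Type*} [Group Ω] {S : Subgroup Ω} [Finite S] {p : ℕ} [hp : Fact p.Prime] (hS : IsPGroup p S)
    {R C : Subgroup Ω} (hR : R ≤ S) (hC : C ≤ S) (hRC : R ≤ Subgroup.normalizer (C : Set Ω)) (hn : ¬ C ≤ R) :
    ∃ y ∈ C, y ∈ Subgroup.normalizer (R : Set Ω) ∧ y ∉ R := by
  have hlt : R < R ⊔ C := lt_of_le_of_ne le_sup_left fun h => hn (h ▸ le_sup_right)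
  have hfin : Finite ↥(R ⊔ C) := finite_of_le (sup_le hR hC)
  have hp : IsPGroup p ↥(R ⊔ C) := hS.to_le (sup_le hR hC)
  have h4 := H86.FusCentric.lt_inf_normalizer hp hlt
  obtain ⟨g, ⟨hg, hgN⟩, hgP⟩ := SetLike.exists_of_lt h4
  have h5 : g ∈ R ⊔ C := hg
  rw [← SetLike.mem_coe, Subgroup.coe_mul_of_left_le_normalizer_right R C hRC] at h5
  obtain ⟨x, hx, y, hy, rfl⟩ := h5
  have h6 : y ∈ Subgroup.normalizer (R : Set Ω) := by
    have := Subgroup.mul_mem _ (Subgroup.inv_mem _ (Subgroup.le_normalizer (H := R) hx)) hgN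
    simpa using this
  refine ⟨y, hy, h6, fun hyR => hgP (R.mul_mem hx hyR)⟩

/-- the pair lemma -/
theorem pair_isPGroup {R : Type*} [Group R] [Finite R] {p : ℕ} [hp : Fact p.Prime] (hR : IsPGroup p R)
    (β γ : MulAut R) (Zβ Zγ R0 : Subgroup R) (h1 : Zβ ≤ R0) (h2 : Zγ ≤ R0)
    (hβ : ∀ x, x⁻¹ * β x ∈ R0) (hγ : ∀ x, x⁻¹ * γ x ∈ R0)
    (hβ0 : ∀ x ∈ R0, x⁻¹ * β x ∈ Zβ) (hγ0 : ∀ x ∈ R0, x⁻¹ * γ x ∈ Zγ)
    (hββ : ∀ x ∈ Zβ, β x = x) (hγγ : ∀ x ∈ Zγ, γ x = x) (hβγ : ∀ x ∈ Zγ, β x = x) :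
    IsPGroup p (Subgroup.closure ({β, γ} : Set (MulAut R))) := by
  have hfix : ∀ x ∈ Zβ ⊔ Zγ, β x = x := by
    let Fx : Subgroup R :=
      { carrier := {x | β x = x}
        mul_mem' := fun {a b} ha hb => by
          simp only [Set.mem_setOf_eq] at ha hb ⊢
          rw [map_mul, ha, hb]
        one_mem' := map_one β
        inv_mem' := fun {a} ha => by
          simp only [Set.mem_setOf_eq] at ha ⊢
          rw [map_inv, ha] }
    intro x hx
    have h3 : Zβ ⊔ Zγ ≤ Fx := sup_le (fun x hx => hββ x hx) (fun x hx => hβγ x hx)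
    exact h3 hx
  let d : ℕ → Subgroup R := fun i => match i with
    | 0 => ⊥
    | 1 => Zγ
    | 2 => Zβ ⊔ Zγ
    | 3 => R0
    | _ => ⊤
  refine chain_isPGroup hR d 4 rfl rfl ?_ _ ?_
  · intro i
    match i with
    | 0 => exact bot_le
    | 1 => exact le_sup_right
    | 2 => exact sup_le h1 h2
    | 3 => exact le_top
    | n + 4 => exact le_rfl
  · intro δ hδ i hi x hx
    have hsup : Zβ ⊔ Zγ ≤ R0 := sup_le h1 h2
    rcases hδ with rfl | hδ
    · match i, hi with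
      | 0, _ =>
        change x⁻¹ * δ x ∈ (⊥ : Subgroup R)
        rw [hβγ x hx, inv_mul_cancel]; exact one_mem _
      | 1, _ =>
        change x⁻¹ * δ x ∈ Zγ
        rw [hfix x hx, inv_mul_cancel]; exact one_mem _
      | 2, _ => exact (le_sup_left : Zβ ≤ Zβ ⊔ Zγ) (hβ0 x hx)
      | 3, _ => exact hβ x
    · rw [Set.mem_singleton_iff] at hδ
      subst hδ
      match i, hi with
      | 0, _ =>
        change x⁻¹ * δ x ∈ (⊥ : Subgroup R)
        rw [hγγ x hx, inv_mul_cancel]; exact one_mem _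
      | 1, _ => exact hγ0 x (hsup hx)
      | 2, _ => exact (le_sup_right : Zγ ≤ Zβ ⊔ Zγ) (hγ0 x hx)
      | 3, _ => exact hγ x

theorem isPGroup_closure_subtype {G : Type*} [Group G] {p : ℕ} {X : Subgroup G} {T : Set X}
    (h : IsPGroup p (Subgroup.closure (X.subtype '' T))) : IsPGroup p (Subgroup.closure T) := by
  have h1 : (Subgroup.closure T).map X.subtype = Subgroup.closure (X.subtype '' T) := MonoidHom.map_closure _ _
  rw [← h1] at h
  exact h.of_equiv ((Subgroup.closure T).equivMapOfInjective _ X.subtype_injective).symm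

section fus

variable {Ω : Type*} [Group Ω] {S : Subgroup Ω} [Finite S] {p : ℕ} [hp : Fact p.Prime]

/-- the data: `P` strongly closed, `Z` of order `p` -/
structure Dat (p : ℕ) (S : Subgroup Ω) (F : FusionSystem S) (P Z : Subgroup Ω) : Prop where
  hS : IsPGroup p S
  hF : F.IsSaturated p
  hP : F.StronglyClosed P
  hZP : Z ≤ P
  hZc : Nat.card Z = p
  hcomm : ∀ x ∈ P, ∀ y ∈ P, ⁅x, y⁆ ∈ Z
  hpow : ∀ x ∈ P, x ^ p ∈ Z
  hZS : ∀ s ∈ S, ∀ z ∈ Z, s * z = z * s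
  hnab : ∃ x ∈ P, ∃ y ∈ P, x * y ≠ y * x

variable {F : FusionSystem S} {P Z : Subgroup Ω}

theorem Dat.normal (D : Dat p S F P Z) : S ≤ Subgroup.normalizer (P : Set Ω) := by
  intro s hs
  rw [Subgroup.mem_normalizer_iff]
  intro x
  constructor
  · intro hx
    exact stronglyClosed_apply_mem D.hP (F.conj_mem le_rfl hs) (x := ⟨x, D.hP.1 hx⟩) hx
  · intro hx
    have hx' : s * x * s⁻¹ ∈ S := D.hP.1 hx
    have := stronglyClosed_apply_mem D.hP (F.conj_mem le_rfl (S.inv_mem hs)) (x := ⟨_, hx'⟩) hx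
    simpa [conjHom, mul_assoc] using this

/-- an automorphism `c_y` in `Inn R` comes from `R` -/
theorem mem_of_conjAut_mem_inn {R : Subgroup Ω} (hR : F.IsCentric R) {y : Ω} (hyS : y ∈ S)
    (hyN : y ∈ Subgroup.normalizer (R : Set Ω)) (h : conjAut R hyN ∈ Inn R) : y ∈ R := by
  obtain ⟨x, hx⟩ := h
  have hC : centralizerIn S R ≤ R := hR.2 R (isConj_refl F hR.1)
  have h2 : (x : Ω)⁻¹ * y ∈ centralizerIn S R := by
    refine ⟨S.mul_mem (S.inv_mem (hR.1 x.2)) hyS, ?_⟩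
    refine Subgroup.mem_centralizer_iff.2 fun w hw => ?_
    have h3 := congrArg (fun α : MulAut R => ((α ⟨w, hw⟩ : R) : Ω)) hx
    have h4 : (x : Ω) * w * (x : Ω)⁻¹ = y * w * y⁻¹ := h3
    have h5 : (x : Ω)⁻¹ * y * w * ((x : Ω)⁻¹ * y)⁻¹ = w := by
      calc (x : Ω)⁻¹ * y * w * ((x : Ω)⁻¹ * y)⁻¹ = (x : Ω)⁻¹ * (y * w * y⁻¹) * x := by group
        _ = w := by rw [← h4]; group
    calc w * ((x : Ω)⁻¹ * y) = ((x : Ω)⁻¹ * y * w * ((x : Ω)⁻¹ * y)⁻¹) * ((x : Ω)⁻¹ * y) := by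
          rw [h5]
      _ = (x : Ω)⁻¹ * y * w := by group
  have h3 := R.mul_mem x.2 (hC h2)
  simpa [mul_assoc] using h3

theorem Dat.Z_le (D : Dat p S F P Z) {R : Subgroup Ω} (hR : F.IsCentric R) : Z ≤ R := by
  refine le_trans ?_ (hR.2 R (isConj_refl F hR.1))
  intro z hz
  refine ⟨D.hP.1 (D.hZP hz), Subgroup.mem_centralizer_iff.2 fun x hx => ?_⟩
  exact D.hZS x (hR.1 hx) z hz

theorem Dat.exists_alpha (D : Dat p S F P Z) {R : Subgroup Ω} (hR : F.IsEssential p R) :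
    ∃ α ∈ F.autGroup R, ∀ (y : Ω) (_ : y ∈ P) (hyN : y ∈ Subgroup.normalizer (R : Set Ω)), y ∉ R →
      (∃ z : R, (z : Ω) ∈ Z ∧ y * (α z : R) ≠ (α z : R) * y) ∧
      (∃ z : R, (z : Ω) ∈ Z ∧ α (conjAut R hyN (α⁻¹ z)) ≠ z) := by
  obtain ⟨hRc, hRn, hNn, E, hE⟩ := hR
  have hRS : R ≤ S := hRc.1
  have hfR : Finite R := finite_of_le hRS
  have hfA : Finite (MulAut R) := finite_mulAut R
  have hRp : IsPGroup p R := D.hS.to_le hRS
  have hPS : P ≤ S := D.hP.1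
  have hZR : Z ≤ R := D.Z_le hRc
  have hB : IsPGroup p ((autInducedBy P R).subgroupOf (F.autGroup R)) :=
    ((isPGroup_autInducedBy D.hS R).to_le (autInducedBy_mono hPS)).comap_subtype
  obtain ⟨⟨α, hα⟩, ha⟩ := spe_exists hE hB
  refine ⟨α, hα, fun y hyP hyN hyR => ?_⟩
  have hPN := D.normal
  -- facts on `c_y`
  have hbA : conjAut R hyN ∈ F.autGroup R :=
    autInducedBy_le_autGroup F hRS (conjAut_mem_autInducedBy hyN (hPS hyP))
  have hbN : (⟨conjAut R hyN, hbA⟩ : F.autGroup R) ∉ (Inn R).subgroupOf (F.autGroup R) :=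
    fun h => hyR (mem_of_conjAut_mem_inn hRc (hPS hyP) hyN h)
  have hbB : (⟨conjAut R hyN, hbA⟩ : F.autGroup R) ∈ (autInducedBy P R).subgroupOf (F.autGroup R) :=
    conjAut_mem_autInducedBy hyN hyP
  have hnot := ha _ hbB _ hbB hbN hbN
  set β := conjAut R hyN with hβdef
  set R0 : Subgroup R := P.subgroupOf R with hR0
  set ZR : Subgroup R := Z.subgroupOf R with hZRdef
  have hα0 : ∀ γ ∈ F.autGroup R, ∀ x ∈ R0, γ x ∈ R0 := fun γ hγ x hx =>
    stronglyClosed_apply_mem D.hP ((mem_autGroup F hRS).1 hγ) hx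
  have b1 : ∀ x, x⁻¹ * β x ∈ R0 := by
    intro x
    change (x : Ω)⁻¹ * (y * x * y⁻¹) ∈ P
    have h1 : (x : Ω)⁻¹ * y * x ∈ P := by
      have := (Subgroup.mem_normalizer_iff.1 (hPN (S.inv_mem (hRS x.2))) y).1 hyP
      simpa using this
    have h2 : (x : Ω)⁻¹ * (y * x * y⁻¹) = ((x : Ω)⁻¹ * y * x) * y⁻¹ := by group
    rw [h2]
    exact P.mul_mem h1 (P.inv_mem hyP)
  have b2 : ∀ x ∈ R0, x⁻¹ * β x ∈ ZR := by
    intro x hx
    change (x : Ω)⁻¹ * (y * x * y⁻¹) ∈ Z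
    have h2 : (x : Ω)⁻¹ * (y * x * y⁻¹) = ⁅(x : Ω)⁻¹, y⁆ := by rw [commutatorElement_def]; group
    rw [h2]
    exact D.hcomm _ (P.inv_mem hx) _ hyP
  have b3 : ∀ x ∈ ZR, β x = x := by
    intro x hx
    apply Subtype.ext
    change y * (x : Ω) * y⁻¹ = x
    rw [D.hZS y (hPS hyP) x hx, mul_inv_cancel_right]
  have hZ0 : ZR ≤ R0 := fun x hx => D.hZP hx
  -- facts on the conjugate
  set γ := α * β * α⁻¹ with hγdef
  have hα' : α⁻¹ ∈ F.autGroup R := Subgroup.inv_mem _ hα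
  have key : ∀ x, x⁻¹ * γ x = α ((α⁻¹ x)⁻¹ * β (α⁻¹ x)) := by
    intro x
    rw [map_mul, map_inv, MulAut.apply_inv_self, hγdef, MulAut.mul_apply, MulAut.mul_apply]
  set ZA : Subgroup R := ZR.map α.toMonoidHom with hZA
  have c1 : ∀ x, x⁻¹ * γ x ∈ R0 := fun x => by rw [key]; exact hα0 α hα _ (b1 _)
  have c2 : ∀ x ∈ R0, x⁻¹ * γ x ∈ ZA := fun x hx => by
    rw [key]
    exact ⟨_, b2 _ (hα0 _ hα' x hx), rfl⟩
  have c3 : ∀ x ∈ ZA, γ x = x := by
    rintro _ ⟨z, hz, rfl⟩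
    change (α * β * α⁻¹) (α z) = α z
    rw [MulAut.mul_apply, MulAut.mul_apply, MulAut.inv_apply_self, b3 z hz]
  have hZA0 : ZA ≤ R0 := by
    rintro _ ⟨z, hz, rfl⟩
    exact hα0 α hα z (hZ0 hz)
  have himg : ∀ (u v : F.autGroup R), (F.autGroup R).subtype '' ({u, v} : Set (F.autGroup R)) = {(u : MulAut R), (v : MulAut R)} := by
    intro u v
    rw [Set.image_pair]; rfl
  constructor
  · by_contra hcon
    push Not at hcon
    apply hnot
    apply isPGroup_closure_subtype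
    rw [himg]
    refine pair_isPGroup hRp β γ ZR ZA R0 hZ0 hZA0 b1 c1 b2 c2 b3 c3 ?_
    rintro _ ⟨z, hz, rfl⟩
    apply Subtype.ext
    change y * ((α z : R) : Ω) * y⁻¹ = (α z : R)
    rw [hcon z hz, mul_inv_cancel_right]
  · by_contra hcon
    push Not at hcon
    apply hnot
    apply isPGroup_closure_subtype
    rw [himg, Set.pair_comm]
    refine pair_isPGroup hRp γ β ZA ZR R0 hZA0 hZ0 c1 b1 c2 b2 c3 b3 ?_
    intro z hz
    exact hcon z hz

end fus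

end H30.SCX
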