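import Cfsg.Agent.Lib.H30.SCX

set_option autoImplicit false
set_option linter.unusedSectionVars false

/-! Strongly closed generalized extraspecial subgroups (S5233), part 2: the structure of `P`. -/

namespace H30.SCX

open Cfsg Cfsg.FusionSystem H86.FusBasic H86.FusSat H86.FusAlperin H89.Normal H89.Normal2
open scoped commutatorElement

theorem prime_gen {Ω : Type*} [Group Ω] {Z : Subgroup Ω} {p : ℕ} [hp : Fact p.Prime] (hZ : Nat.card Z = p)
    {a b : Ω} (ha : a ∈ Z) (ha1 : a ≠ 1) (hb : b ∈ Z) : ∃ k : ℤ, a ^ k = b := by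
  have h := mem_zpowers_of_prime_card (p := p) hZ (g := (⟨a, ha⟩ : Z)) (g' := ⟨b, hb⟩)
    (fun h => ha1 (congrArg Subtype.val h))
  obtain ⟨k, hk⟩ := Subgroup.mem_zpowers_iff.1 h
  exact ⟨k, congrArg Subtype.val hk⟩

theorem prime_pow {Ω : Type*} [Group Ω] {Z : Subgroup Ω} {p : ℕ} (hZ : Nat.card Z = p)
    {a : Ω} (ha : a ∈ Z) : a ^ p = 1 := by
  have h := pow_card_eq_one' (x := (⟨a, ha⟩ : Z))
  rw [hZ] at h
  exact congrArg Subtype.val h

variable {Ω : Type*} [Group Ω] {S : Subgroup Ω} [Finite S] {p : ℕ} [hp : Fact p.Prime]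
variable {F : FusionSystem S} {P Z : Subgroup Ω}

/-- the configuration at an essential subgroup `R` not containing `P` -/
structure Cf (p : ℕ) (S : Subgroup Ω) (F : FusionSystem S) (P Z R : Subgroup Ω) (α : MulAut R) (z z' : R) : Prop
    extends Dat p S F P Z where
  hR : F.IsEssential p R
  hα : α ∈ F.autGroup R
  hzZ : (z : Ω) ∈ Z
  hz1 : z ≠ 1
  hz' : α z = z'
  hm1 : ∀ y ∈ P, y ∈ Subgroup.normalizer (R : Set Ω) → y ∉ R → y * z' ≠ z' * y
  hm2 : ∀ (y : Ω) (_ : y ∈ P) (hyN : y ∈ Subgroup.normalizer (R : Set Ω)), y ∉ R →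
    α (conjAut R hyN (α⁻¹ z)) ≠ z
  hex : ∃ y ∈ P, y ∈ Subgroup.normalizer (R : Set Ω) ∧ y ∉ R

theorem Dat.exists_cf (D : Dat p S F P Z) {R : Subgroup Ω} (hR : F.IsEssential p R) (hPR : ¬ P ≤ R) :
    ∃ α z z', Cf p S F P Z R α z z' := by
  obtain ⟨α, hα, h⟩ := D.exists_alpha hR
  have hZR := D.Z_le hR.1
  have hRS : R ≤ S := hR.1.1
  have hfR : Finite R := finite_of_le hRS
  obtain ⟨w, hw, hw1⟩ : ∃ w ∈ Z, w ≠ 1 := by
    by_contra hcon
    push Not at hcon
    have h1 : Z = ⊥ := (Subgroup.eq_bot_iff_forall _).2 hcon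
    have h2 := D.hZc
    rw [h1, Subgroup.card_bot] at h2
    exact hp.out.one_lt.ne h2
  have hgen : ∀ z : R, (z : Ω) ∈ Z → ∃ k : ℤ, (⟨w, hZR hw⟩ : R) ^ k = z := by
    intro z hz
    obtain ⟨k, hk⟩ := prime_gen D.hZc hw hw1 hz
    exact ⟨k, Subtype.ext (by simpa using hk)⟩
  refine ⟨α, ⟨w, hZR hw⟩, α ⟨w, hZR hw⟩, { D with
    hR := hR
    hα := hα
    hzZ := hw
    hz1 := fun h => hw1 (congrArg Subtype.val h)
    hz' := rfl
    hm1 := ?_
    hm2 := ?_
    hex := exists_norm D.hS hRS D.hP.1 (hRS.trans D.normal) hPR }⟩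
  · intro y hy hyN hyR hcomm
    obtain ⟨⟨z, hz, hne⟩, -⟩ := h y hy hyN hyR
    apply hne
    obtain ⟨k, rfl⟩ := hgen z hz
    rw [map_zpow, Subgroup.coe_zpow]
    exact (Commute.zpow_right hcomm k)
  · intro y hy hyN hyR hfix
    obtain ⟨-, ⟨z, hz, hne⟩⟩ := h y hy hyN hyR
    apply hne
    obtain ⟨k, rfl⟩ := hgen z hz
    rw [map_zpow, map_zpow, map_zpow, hfix]

namespace Cf

variable {R : Subgroup Ω} {α : MulAut R} {z z' : R}

theorem hRS (C : Cf p S F P Z R α z z') : R ≤ S := C.hR.1.1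

theorem mem_P (C : Cf p S F P Z R α z z') {β : MulAut R} (hβ : β ∈ F.autGroup R) {x : R} (hx : (x : Ω) ∈ P) :
    ((β x : R) : Ω) ∈ P :=
  stronglyClosed_apply_mem C.hP ((mem_autGroup F C.hRS).1 hβ) hx

theorem z'P (C : Cf p S F P Z R α z z') : (z' : Ω) ∈ P := by
  rw [← C.hz']; exact C.mem_P C.hα (C.hZP C.hzZ)

theorem z_comm (C : Cf p S F P Z R α z z') (x : R) : x * z = z * x :=
  Subtype.ext (C.hZS x (C.hRS x.2) z C.hzZ)

theorem z'_comm (C : Cf p S F P Z R α z z') (x : R) : x * z' = z' * x := by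
  have h := C.z_comm (α⁻¹ x)
  have h2 := congrArg α h
  rwa [map_mul, map_mul, MulAut.apply_inv_self, C.hz'] at h2

theorem z'_ne (C : Cf p S F P Z R α z z') : z' ≠ 1 := by
  intro h
  apply C.hz1
  rw [← C.hz'] at h
  exact (map_eq_one_iff α α.injective).1 h

theorem cent_le (C : Cf p S F P Z R α z z') {x : Ω} (hx : x ∈ P) (hc : x * z' = z' * x) : x ∈ R := by
  by_contra hxR
  have hn : ¬ (P ⊓ Subgroup.centralizer ({(z' : Ω)} : Set Ω)) ≤ R := fun hle =>
    hxR (hle ⟨hx, Subgroup.mem_centralizer_singleton_iff.2 hc⟩)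
  obtain ⟨y, ⟨hyP, hyC⟩, hyN, hyR⟩ := exists_norm C.hS C.hRS (C := P ⊓ Subgroup.centralizer ({(z' : Ω)} : Set Ω))
    (inf_le_left.trans C.hP.1) (by
      intro r hr
      rw [Subgroup.mem_normalizer_iff]
      intro w
      have h1 := Subgroup.mem_normalizer_iff.1 (C.toDat.normal (C.hRS hr)) w
      rw [Subgroup.mem_inf, Subgroup.mem_inf, h1, Subgroup.mem_centralizer_singleton_iff,
        Subgroup.mem_centralizer_singleton_iff]
      have h2 : r * (z' : Ω) = z' * r := congrArg Subtype.val (C.z'_comm ⟨r, hr⟩)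
      refine and_congr_right fun _ => ?_
      have h3 : r * w * r⁻¹ * z' = r * (w * z') * r⁻¹ := by
        calc r * w * r⁻¹ * z' = r * w * (r⁻¹ * (z' * r)) * r⁻¹ := by group
          _ = r * w * (r⁻¹ * (r * z')) * r⁻¹ := by rw [h2]
          _ = r * (w * z') * r⁻¹ := by group
      have h4 : z' * (r * w * r⁻¹) = r * (z' * w) * r⁻¹ := by
        calc (z' : Ω) * (r * w * r⁻¹) = (z' * r) * w * r⁻¹ := by group
          _ = (r * z') * w * r⁻¹ := by rw [h2]
          _ = r * (z' * w) * r⁻¹ := by group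
      rw [h3, h4]
      constructor
      · intro h; rw [h]
      · intro h
        have := mul_right_cancel h
        exact mul_left_cancel this) hn
  exact C.hm1 y hyP hyN hyR (Subgroup.mem_centralizer_singleton_iff.1 hyC)

/-- `z'` is not in `Z` -/
theorem z'_nZ (C : Cf p S F P Z R α z z') : (z' : Ω) ∉ Z := by
  intro h
  obtain ⟨y, hy, hyN, hyR⟩ := C.hex
  exact C.hm1 y hy hyN hyR (C.hZS y (C.hP.1 hy) z' h)

/-- an element of `Z ∩ R` whose image is in `Z` is trivial -/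
theorem triv (C : Cf p S F P Z R α z z') {c : R} (hc : (c : Ω) ∈ Z) (hc' : ((α c : R) : Ω) ∈ Z) : c = 1 := by
  by_contra h1
  obtain ⟨k, hk⟩ := prime_gen C.hZc hc (fun h => h1 (Subtype.ext h)) C.hzZ
  apply C.z'_nZ
  rw [← C.hz']
  have h2 : c ^ k = z := Subtype.ext (by simpa using hk)
  rw [← h2, map_zpow, Subgroup.coe_zpow]
  exact Z.zpow_mem hc' k

theorem R0_comm (C : Cf p S F P Z R α z z') {x y : R} (hx : (x : Ω) ∈ P) (hy : (y : Ω) ∈ P) : x * y = y * x := by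
  have h1 : ⁅x, y⁆ = 1 := by
    apply C.triv
    · rw [show ((⁅x, y⁆ : R) : Ω) = ⁅(x : Ω), (y : Ω)⁆ from rfl]
      exact C.hcomm _ hx _ hy
    · rw [map_commutatorElement]
      exact C.hcomm _ (C.mem_P C.hα hx) _ (C.mem_P C.hα hy)
  exact commutatorElement_eq_one_iff_mul_comm.1 h1

theorem R0_pow (C : Cf p S F P Z R α z z') {x : R} (hx : (x : Ω) ∈ P) : x ^ p = 1 := by
  apply C.triv
  · rw [Subgroup.coe_pow]; exact C.hpow _ hx
  · rw [map_pow, Subgroup.coe_pow]; exact C.hpow _ (C.mem_P C.hα hx)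

end Cf

end H30.SCX
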