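import Cfsg.Agent.Lib.H30.SCX2
import Cfsg.Agent.Lib.H3.ClassTwo
import Cfsg.Agent.Lib.H1.Cores

set_option autoImplicit false
set_option linter.unusedSectionVars false

/-! Strongly closed generalized extraspecial subgroups (S5233), part 3: an element of order `p` outside `R`. -/

namespace H30.SCX

open Cfsg Cfsg.FusionSystem H86.FusBasic H86.FusSat H86.FusAlperin H89.Normal H89.Normal2
open scoped commutatorElement

/-- the abstract `SL₂` computation -/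
theorem sl2 {R : Type*} [Group R] {p : ℕ} [hp : Fact p.Prime] {b b' : MulAut R} {z z' : R}
    (hz : ∀ x, x * z = z * x) (hz' : ∀ x, x * z' = z' * x) (hzp : z ^ p = 1) (hz'p : z' ^ p = 1)
    {l m : ℤ} (hbz : b z = z) (hbz' : b z' = z' * z ^ l) (hb'z' : b' z' = z') (hb'z : b' z = z * z' ^ m)
    (hl : b z' ≠ z') (hm : b' z ≠ z) :
    ∃ j : ℕ, ∀ h, h = (b * b' ^ j * b) * (b * b' ^ j * b) → h z = z⁻¹ ∧ h z' = z'⁻¹ ∧
      (∀ c, b c = c → b' c = c → h c = c) := by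
  have hpz : ∀ (w : R) (_ : w ^ p = 1) (k : ℤ), (p : ℤ) ∣ k → w ^ k = 1 := by
    rintro w hw k ⟨c, rfl⟩
    rw [zpow_mul, zpow_natCast, hw, one_zpow]
  have hl0 : ((l : ℤ) : ZMod p) ≠ 0 := by
    intro h0
    apply hl
    rw [hbz', hpz z hzp l ((ZMod.intCast_zmod_eq_zero_iff_dvd l p).1 h0), mul_one]
  have hm0 : ((m : ℤ) : ZMod p) ≠ 0 := by
    intro h0
    apply hm
    rw [hb'z, hpz z' hz'p m ((ZMod.intCast_zmod_eq_zero_iff_dvd m p).1 h0), mul_one]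
  obtain ⟨j, hj⟩ : ∃ j : ℕ, ((l * (m * j) + 1 : ℤ) : ZMod p) = 0 := by
    refine ⟨(-((l : ZMod p) * m)⁻¹).val, ?_⟩
    push_cast
    rw [ZMod.natCast_val, ZMod.cast_id', id]
    field_simp
    ring
  have hj' : (p : ℤ) ∣ l * (m * j) + 1 := (ZMod.intCast_zmod_eq_zero_iff_dvd _ p).1 hj
  have e1 : z ^ (l * (m * j)) = z⁻¹ := by
    have := hpz z hzp _ hj'
    rw [zpow_add, zpow_one] at this
    exact eq_inv_of_mul_eq_one_left this
  have e2 : z' ^ (l * (m * j)) = z'⁻¹ := by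
    have := hpz z' hz'p _ hj'
    rw [zpow_add, zpow_one] at this
    exact eq_inv_of_mul_eq_one_left this
  have hzz : Commute z z' := (hz z').symm
  -- powers of `b'`
  have hpw : ∀ n : ℕ, (b' ^ n) z' = z' ∧ (b' ^ n) z = z * z' ^ (m * n) := by
    intro n
    induction n with
    | zero => simp
    | succ n ih =>
      constructor
      · rw [pow_succ, MulAut.mul_apply, hb'z', ih.1]
      · rw [pow_succ, MulAut.mul_apply, hb'z, map_mul, ih.2, map_zpow, ih.1, mul_assoc, ← zpow_add]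
        congr 2
        push_cast; ring
  refine ⟨j, ?_⟩
  rintro _ rfl
  set h1 := b * b' ^ j * b with hh1
  have f1 : h1 z = z' ^ (m * j) := by
    rw [hh1, MulAut.mul_apply, MulAut.mul_apply, hbz, (hpw j).2, map_mul, map_zpow, hbz, hbz',
      ((hzz.symm).zpow_right l).mul_zpow, ← zpow_mul, e1]
    rw [← mul_assoc, ← hz, mul_inv_cancel_right]
  have f2 : h1 z' = z ^ l := by
    rw [hh1, MulAut.mul_apply, MulAut.mul_apply, hbz', map_mul, map_zpow, (hpw j).1, (hpw j).2,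
      (hzz.zpow_right (m * j)).mul_zpow, ← zpow_mul, mul_comm (m * j) l, e2, ← mul_assoc, ← hz',
      mul_inv_cancel_right, map_zpow, hbz]
  refine ⟨?_, ?_, ?_⟩
  · rw [MulAut.mul_apply, f1, map_zpow, f2, ← zpow_mul, e1]
  · rw [MulAut.mul_apply, f2, map_zpow, f1, ← zpow_mul, mul_comm, e2]
  · intro c hc hc'
    have g1 : ∀ n : ℕ, (b' ^ n) c = c := by
      intro n
      induction n with
      | zero => simp
      | succ n ih => rw [pow_succ, MulAut.mul_apply, hc', ih]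
    have g2 : h1 c = c := by rw [hh1, MulAut.mul_apply, MulAut.mul_apply, hc, g1, hc]
    rw [MulAut.mul_apply, g2, g2]

variable {Ω : Type*} [Group Ω] {S : Subgroup Ω} [Finite S] {p : ℕ} [hp : Fact p.Prime]
variable {F : FusionSystem S} {P Z : Subgroup Ω}

namespace Cf

variable {R : Subgroup Ω} {α : MulAut R} {z z' : R}

/-- automorphisms trivial on `R / (P ∩ R)` -/
def TV (F : FusionSystem S) (P R : Subgroup Ω) : Set (MulAut R) :=
  {β | β ∈ F.autGroup R ∧ ∀ x : R, ((x⁻¹ * β x : R) : Ω) ∈ P}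

theorem TV_mul (C : Cf p S F P Z R α z z') {β γ : MulAut R} (hβ : β ∈ TV F P R) (hγ : γ ∈ TV F P R) :
    β * γ ∈ TV F P R := by
  refine ⟨mul_mem hβ.1 hγ.1, fun x => ?_⟩
  have h1 : x⁻¹ * (β * γ) x = (x⁻¹ * β x) * β (x⁻¹ * γ x) := by
    rw [map_mul, map_inv, MulAut.mul_apply]; group
  rw [h1, Subgroup.coe_mul]
  exact P.mul_mem (hβ.2 x) (C.mem_P hβ.1 (hγ.2 x))

theorem TV_inv (C : Cf p S F P Z R α z z') {β : MulAut R} (hβ : β ∈ TV F P R) : β⁻¹ ∈ TV F P R := by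
  refine ⟨inv_mem hβ.1, fun x => ?_⟩
  have h1 := hβ.2 (β⁻¹ x)
  rw [MulAut.apply_inv_self] at h1
  have h2 : x⁻¹ * β⁻¹ x = ((β⁻¹ x)⁻¹ * x)⁻¹ := by group
  rw [h2, Subgroup.coe_inv]
  exact P.inv_mem h1

theorem TV_pow (C : Cf p S F P Z R α z z') {β : MulAut R} (hβ : β ∈ TV F P R) (n : ℕ) : β ^ n ∈ TV F P R := by
  induction n with
  | zero =>
    rw [pow_zero]
    exact ⟨one_mem _, fun x => by
      rw [MulAut.one_apply, inv_mul_cancel, Subgroup.coe_one]; exact P.one_mem⟩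
  | succ n ih => rw [pow_succ]; exact C.TV_mul ih hβ

theorem TV_conj (C : Cf p S F P Z R α z z') {β γ : MulAut R} (hβ : β ∈ TV F P R) (hγ : γ ∈ F.autGroup R) :
    γ * β * γ⁻¹ ∈ TV F P R := by
  refine ⟨mul_mem (mul_mem hγ hβ.1) (inv_mem hγ), fun x => ?_⟩
  have h1 : x⁻¹ * (γ * β * γ⁻¹) x = γ ((γ⁻¹ x)⁻¹ * β (γ⁻¹ x)) := by
    rw [map_mul, map_inv, MulAut.apply_inv_self, MulAut.mul_apply, MulAut.mul_apply]
  rw [h1]
  exact C.mem_P hγ (hβ.2 _)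

theorem TV_b (C : Cf p S F P Z R α z z') {y : Ω} (hy : y ∈ P) (hyN : y ∈ Subgroup.normalizer (R : Set Ω)) :
    conjAut R hyN ∈ TV F P R := by
  refine ⟨autInducedBy_le_autGroup F C.hRS (conjAut_mem_autInducedBy hyN (C.hP.1 hy)), fun x => ?_⟩
  change (x : Ω)⁻¹ * (y * x * y⁻¹) ∈ P
  have h1 : (x : Ω)⁻¹ * y * x ∈ P := by
    have := (Subgroup.mem_normalizer_iff.1 (C.toDat.normal (S.inv_mem (C.hRS x.2))) y).1 hy
    simpa using this
  have h2 : (x : Ω)⁻¹ * (y * x * y⁻¹) = ((x : Ω)⁻¹ * y * x) * y⁻¹ := by group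
  rw [h2]
  exact P.mul_mem h1 (P.inv_mem hy)

/-- automorphisms in `TV` trivial on `P ∩ R` are inner -/
theorem TT_inn (C : Cf p S F P Z R α z z') {β : MulAut R} (hβ : β ∈ TV F P R)
    (hβ0 : ∀ x : R, (x : Ω) ∈ P → β x = x) : β ∈ Inn R := by
  have hfR : Finite R := finite_of_le C.hRS
  have hfA : Finite (MulAut R) := finite_mulAut R
  have hRp : IsPGroup p R := C.hS.to_le C.hRS
  have hrad := radical_of_essential C.hS C.hR
  rw [← hrad.2]
  let T : Subgroup (MulAut R) :=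
    { carrier := {β | β ∈ TV F P R ∧ ∀ x : R, (x : Ω) ∈ P → β x = x}
      mul_mem' := fun {a b} ha hb => ⟨C.TV_mul ha.1 hb.1, fun x hx => by
        rw [MulAut.mul_apply, hb.2 x hx, ha.2 x hx]⟩
      one_mem' := ⟨C.TV_pow hβ 0 |> fun h => by rwa [pow_zero] at h, fun x _ => rfl⟩
      inv_mem' := fun {a} ha => ⟨C.TV_inv ha.1, fun x hx => by
        have h2 : a⁻¹ (a x) = a⁻¹ x := by rw [ha.2 x hx]
        rwa [MulAut.inv_apply_self, eq_comm] at h2⟩ }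
  have hTp : IsPGroup p T := by
    let d : ℕ → Subgroup R := fun i => match i with
      | 0 => ⊥
      | 1 => P.subgroupOf R
      | _ => ⊤
    have h1 := chain_isPGroup (p := p) hRp d 2 rfl rfl (by
      intro i
      match i with
      | 0 => exact bot_le
      | 1 => exact le_top
      | n + 2 => exact le_rfl) (T : Set (MulAut R)) (by
      intro γ hγ i hi x hx
      match i, hi with
      | 0, _ =>
        change x⁻¹ * γ x ∈ (⊥ : Subgroup R)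
        rw [hγ.2 x hx, inv_mul_cancel]; exact one_mem _
      | 1, _ => exact hγ.1.2 x)
    rwa [Subgroup.closure_eq] at h1
  have hTA : T ≤ F.autGroup R := fun γ hγ => hγ.1.1
  have hTn : (T.subgroupOf (F.autGroup R)).Normal := ⟨fun n hn g => by
    rw [Subgroup.mem_subgroupOf] at hn ⊢
    refine ⟨C.TV_conj hn.1 g.2, fun x hx => ?_⟩
    change (g : MulAut R) ((n : MulAut R) ((g : MulAut R)⁻¹ x)) = x
    rw [hn.2 _ (C.mem_P (inv_mem g.2) hx), MulAut.apply_inv_self]⟩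
  have hle : T.subgroupOf (F.autGroup R) ≤ pCore p (F.autGroup R) :=
    H1.Cores.le_pCore hTn (hTp.comap_subtype)
  exact ⟨⟨β, hβ.1⟩, hle (Subgroup.mem_subgroupOf.2 ⟨hβ, hβ0⟩), rfl⟩

/-- for `p` odd an element of `P ∩ N(R)` outside `R` has order `p` -/
theorem pow_eq_one (C : Cf p S F P Z R α z z') (hp2 : p ≠ 2) {y : Ω} (hy : y ∈ P)
    (hyN : y ∈ Subgroup.normalizer (R : Set Ω)) (hyR : y ∉ R) : y ^ p = 1 := by
  have hfR : Finite R := finite_of_le C.hRS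
  set b := conjAut R hyN with hb
  set b' := α * b * α⁻¹ with hb'
  have hbT : b ∈ TV F P R := C.TV_b hy hyN
  have hb'T : b' ∈ TV F P R := C.TV_conj hbT C.hα
  -- elementary facts
  have hZgen : ∀ {a c : R}, (a : Ω) ∈ Z → a ≠ 1 → (c : Ω) ∈ Z → ∃ k : ℤ, a ^ k = c := by
    intro a c ha ha1 hc
    obtain ⟨k, hk⟩ := prime_gen C.hZc ha (fun h => ha1 (Subtype.ext h)) hc
    exact ⟨k, Subtype.ext (by simpa using hk)⟩
  have hbZ : ∀ x : R, (x : Ω) ∈ P → ((x⁻¹ * b x : R) : Ω) ∈ Z := by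
    intro x hx
    change (x : Ω)⁻¹ * (y * x * y⁻¹) ∈ Z
    have h2 : (x : Ω)⁻¹ * (y * x * y⁻¹) = ⁅(x : Ω)⁻¹, y⁆ := by rw [commutatorElement_def]; group
    rw [h2]
    exact C.hcomm _ (P.inv_mem hx) _ hy
  have hbx : ∀ x : R, (x : Ω) ∈ P → ∃ k : ℤ, b x = x * z ^ k := by
    intro x hx
    obtain ⟨k, hk⟩ := hZgen C.hzZ C.hz1 (hbZ x hx)
    exact ⟨k, by rw [hk]; group⟩
  have hb'x : ∀ x : R, (x : Ω) ∈ P → ∃ k : ℤ, b' x = x * z' ^ k := by
    intro x hx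
    have hαx : ((α⁻¹ x : R) : Ω) ∈ P := C.mem_P (inv_mem C.hα) hx
    obtain ⟨k, hk⟩ := hbx _ hαx
    refine ⟨k, ?_⟩
    rw [hb', MulAut.mul_apply, MulAut.mul_apply, hk, map_mul, MulAut.apply_inv_self, map_zpow, C.hz']
  have hbz : b z = z := by
    apply Subtype.ext
    change y * (z : Ω) * y⁻¹ = z
    rw [C.hZS y (C.hP.1 hy) z C.hzZ, mul_inv_cancel_right]
  have hb'z' : b' z' = z' := by
    have : α⁻¹ z' = z := by rw [← C.hz', MulAut.inv_apply_self]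
    rw [hb', MulAut.mul_apply, MulAut.mul_apply, this, hbz, C.hz']
  obtain ⟨l, hl⟩ := hbx z' C.z'P
  obtain ⟨m, hm⟩ := hb'x z (C.hZP C.hzZ)
  have hl1 : b z' ≠ z' := by
    intro h
    apply C.hm1 y hy hyN hyR
    have h2 : y * (z' : Ω) * y⁻¹ = z' := congrArg Subtype.val h
    rw [mul_inv_eq_iff_eq_mul] at h2
    exact h2
  have hm1 : b' z ≠ z := C.hm2 y hy hyN hyR
  have hzp : z ^ p = 1 := C.R0_pow (C.hZP C.hzZ)
  have hz'p : z' ^ p = 1 := C.R0_pow C.z'P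
  obtain ⟨j, hj⟩ := sl2 C.z_comm C.z'_comm hzp hz'p hbz hl hb'z' hm hl1 hm1
  set h1 := b * b' ^ j * b with hh1
  obtain ⟨g1, g2, g3⟩ := hj (h1 * h1) rfl
  set h := h1 * h1 with hh
  have hh1T : h1 ∈ TV F P R := C.TV_mul (C.TV_mul hbT (C.TV_pow hb'T j)) hbT
  have hhT : h ∈ TV F P R := C.TV_mul hh1T hh1T
  have hzl : z ^ l ≠ 1 := by
    intro h0
    rw [h0, mul_one] at hl
    exact hl1 hl
  have hz'm : z' ^ m ≠ 1 := by
    intro h0
    rw [h0, mul_one] at hm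
    exact hm1 hm
  have hzz : Commute z z' := (C.z_comm z').symm
  -- decomposition of `P ∩ R`
  have hdec : ∀ x : R, (x : Ω) ∈ P → ∃ (i k : ℤ) (c : R), b c = c ∧ b' c = c ∧ x = c * z ^ i * z' ^ k := by
    intro x hx
    obtain ⟨s, hs⟩ := hbx x hx
    obtain ⟨k, hk⟩ := hZgen (a := z ^ l) (c := z ^ s) (by rw [Subgroup.coe_zpow]; exact Z.zpow_mem C.hzZ _)
      hzl (by rw [Subgroup.coe_zpow]; exact Z.zpow_mem C.hzZ _)
    set x1 := x * z' ^ (-k) with hx1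
    have hx1P : (x1 : Ω) ∈ P := by
      rw [hx1, Subgroup.coe_mul, Subgroup.coe_zpow]
      exact P.mul_mem hx (P.zpow_mem C.z'P _)
    have hbx1 : b x1 = x1 := by
      rw [hx1, map_mul, map_zpow, hs, hl, (C.z_comm z' |> fun h => (show Commute z' z from h).zpow_right l).mul_zpow,
        zpow_neg (z ^ l), hk]
      have e : Commute (z ^ s) (z' ^ (-k)) := (hzz.zpow_left s).zpow_right (-k)
      calc x * z ^ s * (z' ^ (-k) * (z ^ s)⁻¹) = x * (z ^ s * z' ^ (-k)) * (z ^ s)⁻¹ := by group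
        _ = x * (z' ^ (-k) * z ^ s) * (z ^ s)⁻¹ := by rw [e.eq]
        _ = x * z' ^ (-k) := by group
    obtain ⟨t, ht⟩ := hb'x x1 hx1P
    have hk2 : ∃ i : ℤ, (z' ^ m) ^ i = z' ^ t := by
      obtain ⟨i, hi⟩ := hZgen (a := z ^ m) (c := z ^ t) (by rw [Subgroup.coe_zpow]; exact Z.zpow_mem C.hzZ _)
        (by
          intro h0
          apply hz'm
          rw [← C.hz', ← map_zpow, h0, map_one]) (by rw [Subgroup.coe_zpow]; exact Z.zpow_mem C.hzZ _)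
      refine ⟨i, ?_⟩
      rw [← C.hz', ← map_zpow, ← map_zpow, hi, map_zpow]
    obtain ⟨i, hi⟩ := hk2
    refine ⟨i, k, x1 * z ^ (-i), ?_, ?_, ?_⟩
    · rw [map_mul, map_zpow, hbx1, hbz]
    · rw [map_mul, map_zpow, ht, hm, (hzz.zpow_right m).mul_zpow, zpow_neg (z' ^ m), hi]
      have e : Commute (z' ^ t) (z ^ (-i)) := (hzz.symm.zpow_left t).zpow_right (-i)
      calc x1 * z' ^ t * (z ^ (-i) * (z' ^ t)⁻¹) = x1 * (z' ^ t * z ^ (-i)) * (z' ^ t)⁻¹ := by group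
        _ = x1 * (z ^ (-i) * z' ^ t) * (z' ^ t)⁻¹ := by rw [e.eq]
        _ = x1 * z ^ (-i) := by group
    · rw [hx1]; group
  -- `h` and `b` commute on `P ∩ R`
  have hcomm : ∀ x : R, (x : Ω) ∈ P → h (b x) = b (h x) := by
    have hz1 : h (b z) = b (h z) := by rw [hbz, g1, map_inv, hbz]
    have hz2 : h (b z') = b (h z') := by
      rw [hl, map_mul, map_zpow, g1, g2, map_inv, hl, mul_inv_rev, ← zpow_neg, ← zpow_neg_one z, ← zpow_mul]
      have e : Commute (z ^ (-l)) z'⁻¹ := (hzz.zpow_left (-l)).inv_right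
      rw [e.eq]
      congr 2
      ring
    intro x hx
    obtain ⟨i, k, c, hc, hc', rfl⟩ := hdec x hx
    simp only [map_mul, map_zpow, hz1, hz2, hc, g3 c hc hc']
  -- the commutator is inner
  have hkT : h * b * h⁻¹ * b⁻¹ ∈ TV F P R :=
    C.TV_mul (C.TV_mul (C.TV_mul hhT hbT) (C.TV_inv hhT)) (C.TV_inv hbT)
  have hk0 : ∀ x : R, (x : Ω) ∈ P → (h * b * h⁻¹ * b⁻¹) x = x := by
    intro x hx
    have hw : ((h⁻¹ (b⁻¹ x) : R) : Ω) ∈ P := C.mem_P (inv_mem hhT.1) (C.mem_P (inv_mem hbT.1) hx)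
    change h (b (h⁻¹ (b⁻¹ x))) = x
    rw [hcomm _ hw, MulAut.apply_inv_self, MulAut.apply_inv_self]
  obtain ⟨r, hr⟩ := C.TT_inn hkT hk0
  have hr' : ∀ w : R, h (b w) = r * b (h w) * r⁻¹ := by
    intro w
    have e1 : (h * b * h⁻¹ * b⁻¹) (b (h w)) = r * b (h w) * r⁻¹ := by rw [← hr]; rfl
    rw [← e1]
    change h (b w) = h (b (h⁻¹ (b⁻¹ (b (h w)))))
    rw [MulAut.inv_apply_self, MulAut.inv_apply_self]
  -- extend `h`
  have hrec := receptive_of_fullyNormalized C.hS C.hF C.hR.2.1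
  have hiso : IsIso F h := (mem_autGroup F C.hRS).1 hhT.1
  have hyS : y ∈ S := C.hP.1 hy
  have hyE0 : y ∈ FusionSystem.extender S R (R.subtype.comp h.toMonoidHom) := by
    refine mem_extender.2 ⟨hyS, hyN, r * y, S.mul_mem (C.hRS r.2) hyS, fun x hx => ?_⟩
    have e1 : (⟨y * (x : Ω) * y⁻¹, hx⟩ : R) = b x := rfl
    change ((h ⟨y * (x : Ω) * y⁻¹, hx⟩ : R) : Ω) = _
    rw [e1, hr' x]
    change (r : Ω) * (y * ((h x : R) : Ω) * y⁻¹) * (r : Ω)⁻¹ = (r * y) * ((h x : R) : Ω) * (r * y)⁻¹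
    group
  obtain ⟨N, hRN, hyE, ψ, hψ, hψh⟩ : ∃ (N : Subgroup Ω) (hRN : R ≤ N) (_ : y ∈ N), ∃ ψ ∈ F.Hom N,
      ∀ x : R, ψ ⟨x, hRN x.2⟩ = h x :=
    ⟨_, le_extender C.hRS fun x => C.hRS (h x).2, hyE0, receptive_extend hrec (e := h) hiso
      (R := FusionSystem.extender S R (R.subtype.comp h.toMonoidHom))
      (le_extender C.hRS fun x => C.hRS (h x).2) le_rfl⟩
  set Y : N := ⟨y, hyE⟩ with hY
  have hYP : ψ Y ∈ P := stronglyClosed_apply_mem C.hP hψ (x := Y) hy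
  have hYS : ψ Y ∈ S := C.hP.1 hYP
  -- `ψ y` acts like `r y`
  have hact : ∀ w : R, ψ Y * (w : Ω) * (ψ Y)⁻¹ = r * y * (w : Ω) * (r * y)⁻¹ := by
    intro w
    have e1 : w = h (h⁻¹ w) := (MulAut.apply_inv_self _ h w).symm
    set v := h⁻¹ w with hv
    rw [e1, ← hψh v, ← map_inv, ← map_mul, ← map_mul]
    have e2 : Y * ⟨(v : Ω), hRN v.2⟩ * Y⁻¹ = ⟨((b v : R) : Ω), hRN (b v).2⟩ := Subtype.ext rfl
    rw [e2, hψh (b v), hr' v, hψh v]
    change (r : Ω) * (y * ((h v : R) : Ω) * y⁻¹) * (r : Ω)⁻¹ = (r * y) * ((h v : R) : Ω) * (r * y)⁻¹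
    group
  have hcent : (ψ Y)⁻¹ * (r * y) ∈ R := by
    apply C.hR.1.2 R (isConj_refl F C.hRS)
    refine ⟨S.mul_mem (S.inv_mem hYS) (S.mul_mem (C.hRS r.2) hyS), Subgroup.mem_centralizer_iff.2 ?_⟩
    intro w hw
    have e1 := hact ⟨w, hw⟩
    have e2 : w = (ψ Y)⁻¹ * (r * y) * w * ((ψ Y)⁻¹ * (r * y))⁻¹ := by
      calc w = (ψ Y)⁻¹ * (ψ Y * w * (ψ Y)⁻¹) * ψ Y := by group
        _ = (ψ Y)⁻¹ * (r * y * w * (r * y)⁻¹) * ψ Y := by rw [e1]
        _ = _ := by group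
    calc w * ((ψ Y)⁻¹ * (r * y)) = ((ψ Y)⁻¹ * (r * y) * w * ((ψ Y)⁻¹ * (r * y))⁻¹) * ((ψ Y)⁻¹ * (r * y)) := by
          rw [← e2]
      _ = (ψ Y)⁻¹ * (r * y) * w := by group
  -- `ψ y = r' y`
  set r' := ψ Y * y⁻¹ with hr'def
  have hr'R : r' ∈ R := by
    have e1 : r' = r * (y * ((ψ Y)⁻¹ * (r * y))⁻¹ * y⁻¹) := by rw [hr'def]; group
    rw [e1]
    exact R.mul_mem r.2 ((Subgroup.mem_normalizer_iff.1 hyN _).1 (R.inv_mem hcent))
  have hr'P : r' ∈ P := P.mul_mem hYP (P.inv_mem hy)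
  have hr'p : r' ^ p = 1 := congrArg Subtype.val (C.R0_pow (x := ⟨r', hr'R⟩) hr'P)
  have hψY : ψ Y = r' * y := by rw [hr'def]; group
  have hcZ : ⁅y, r'⁆ ∈ Z := C.hcomm y hy r' hr'P
  have hpow : (r' * y) ^ p = y ^ p := by
    rw [H3.ClassTwo.mul_pow_eq (C.hZS r' (C.hP.1 hr'P) _ hcZ).symm (C.hZS y hyS _ hcZ).symm, hr'p, one_mul]
    obtain ⟨c, hc⟩ := H3.ClassTwo.prime_dvd_choose_two hp.out hp2
    rw [hc, pow_mul, prime_pow C.hZc hcZ, one_pow, mul_one]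
  have hypZ : y ^ p ∈ Z := C.hpow y hy
  obtain ⟨i, hi⟩ := prime_gen C.hZc C.hzZ (fun h => C.hz1 (Subtype.ext h)) hypZ
  have e3 : ψ (Y ^ p) = (y ^ p)⁻¹ := by
    have e4 : Y ^ p = ⟨((z ^ i : R) : Ω), hRN (z ^ i).2⟩ := Subtype.ext (by
      change y ^ p = _
      rw [← hi]; simp)
    rw [e4, hψh, map_zpow, g1, ← hi]
    simp
  rw [map_pow, hψY, hpow] at e3
  have e5 : (y ^ p) ^ 2 = 1 := by
    rw [pow_two]
    nth_rewrite 1 [e3]
    rw [inv_mul_cancel]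
  have e6 : (y ^ p) ^ p = 1 := prime_pow C.hZc hypZ
  have e7 : orderOf (y ^ p) ∣ Nat.gcd 2 p := Nat.dvd_gcd (orderOf_dvd_of_pow_eq_one e5) (orderOf_dvd_of_pow_eq_one e6)
  have e8 : Nat.gcd 2 p = 1 := by
    rw [← Nat.coprime_iff_gcd_eq_one, Nat.coprime_primes Nat.prime_two hp.out]
    exact fun h => hp2 h.symm
  rw [e8] at e7
  exact orderOf_eq_one_iff.1 (Nat.dvd_one.1 e7)

/-- an element of order `p` in `P ∖ R` -/
theorem exists_elt (C : Cf p S F P Z R α z z') : ∃ y ∈ P, y ∉ R ∧ y ^ p = 1 := by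
  obtain ⟨y, hy, hyN, hyR⟩ := C.hex
  by_cases hp2 : p = 2
  · by_cases h1 : y ^ p = 1
    · exact ⟨y, hy, hyR, h1⟩
    · refine ⟨y * z', P.mul_mem hy C.z'P, fun h => hyR ?_, ?_⟩
      · have := R.mul_mem h (R.inv_mem z'.2)
        rwa [mul_inv_cancel_right] at this
      · have hcZ : ⁅(z' : Ω), y⁆ ∈ Z := C.hcomm _ C.z'P y hy
        have hz'p : (z' : Ω) ^ p = 1 := congrArg Subtype.val (C.R0_pow C.z'P)
        rw [H3.ClassTwo.mul_pow_eq (C.hZS y (C.hP.1 hy) _ hcZ).symm (C.hZS _ (C.hP.1 C.z'P) _ hcZ).symm,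
          hz'p, mul_one]
        subst hp2
        rw [show (2 : ℕ).choose 2 = 1 from rfl, pow_one]
        have hc1 : ⁅(z' : Ω), y⁆ ≠ 1 := by
          intro h0
          exact C.hm1 y hy hyN hyR (commutatorElement_eq_one_iff_mul_comm.1 h0).symm
        obtain ⟨k, hk⟩ := prime_gen C.hZc hcZ hc1 (C.hpow y hy)
        have hc2 : ⁅(z' : Ω), y⁆ ^ 2 = 1 := prime_pow C.hZc hcZ
        rcases Int.even_or_odd' k with ⟨m, hm | hm⟩
        · exfalso
          apply h1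
          rw [← hk, hm, zpow_mul, zpow_ofNat, hc2, one_zpow]
        · rw [← hk, hm, zpow_add, zpow_mul, zpow_ofNat, hc2, one_zpow, one_mul, zpow_one, ← pow_two, hc2]
  · exact ⟨y, hy, hyR, C.pow_eq_one hp2 hy hyN hyR⟩

end Cf

end H30.SCX
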