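import Cfsg.Agent.Lib.H30.SCX3
import Cfsg.Agent.Lib.H29.Elem
import Cfsg.Agent.Lib.H5.DihedralLift
import Cfsg.Agent.Lib.H28.PCube
import Cfsg.Agent.Lib.H56.Heis
import Cfsg.Agent.Lib.H1.Frat
import Cfsg.Agent.Lib.H3.OmegaRankTwo
import Cfsg.Agent.Lib.Lead.OddAssembly

set_option autoImplicit false
set_option linter.unusedSectionVars false

/-! Strongly closed generalized extraspecial subgroups (S5233), part 4: the structure of `P`. -/

namespace H30.SCX

open Cfsg Cfsg.FusionSystem H86.FusBasic H86.FusSat H86.FusAlperin H89.Normal H89.Normal2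
open scoped commutatorElement

universe u

section grp

variable {X : Type u} [Group X]

/-- internal direct products -/
theorem prod_iso {A B : Subgroup X} (hd : A ⊓ B = ⊥) (hc : ∀ a ∈ A, ∀ b ∈ B, a * b = b * a) (ht : A ⊔ B = ⊤) :
    Nonempty (X ≃* A × B) := by
  have hcs : ∀ (a : A) (b : B), Commute (A.subtype a) (B.subtype b) := fun a b => hc a a.2 b b.2
  have hinj : Function.Injective (MonoidHom.noncommCoprod A.subtype B.subtype hcs) :=
    (MonoidHom.noncommCoprod_injective _ _ _).2 ⟨Subtype.val_injective, Subtype.val_injective, by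
      rw [Subgroup.range_subtype, Subgroup.range_subtype, disjoint_iff]; exact hd⟩
  have hsurj : Function.Surjective (MonoidHom.noncommCoprod A.subtype B.subtype hcs) := by
    rw [← MonoidHom.range_eq_top, MonoidHom.noncommCoprod_range, Subgroup.range_subtype, Subgroup.range_subtype]
    exact ht
  exact ⟨(MulEquiv.ofBijective _ ⟨hinj, hsurj⟩).symm⟩

theorem card_compl [Finite X] {A B M : Subgroup X} (h : IsComplIn A B M)
    (hn : M ≤ Subgroup.normalizer (A : Set X)) : Nat.card M = Nat.card A * Nat.card B := by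
  rw [Lead.OddAssembly.card_of_complIn h hn, Lead.OddAssembly.card_mul_relIndex_of_le h.1]

theorem decomp [Finite X] {p : ℕ} [hp : Fact p.Prime] (B : Subgroup X)
    (hB : ∀ a ∈ B, ∀ b ∈ B, a * b = b * a) (hBp : ∀ a ∈ B, a ^ p = 1)
    (hcen : ∀ a b x : X, x * ⁅a, b⁆ = ⁅a, b⁆ * x) {y v : X} (hv : v ∈ B) (hyp : y ^ p = 1)
    (hcv : ∀ x : X, x * v = v * x → x ∈ B) (hyv : ⁅y, v⁆ ≠ 1) (hc1 : ∀ x : X, ∃ k : ℤ, ⁅y, v⁆ ^ k = ⁅x, v⁆)
    (hc2 : ∀ x : X, ∃ k : ℤ, ⁅y, v⁆ ^ k = ⁅y, x⁆) :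
    ∃ A : Subgroup X, (∀ a ∈ A, ∀ x : X, a * x = x * a) ∧ (∀ a ∈ A, a ^ p = 1) ∧
      A ⊓ Subgroup.closure {y, v} = ⊥ ∧ A ⊔ Subgroup.closure {y, v} = ⊤ ∧
      Nat.card (Subgroup.closure ({y, v} : Set X)) = p ^ 3 ∧
      ∀ x ∈ Subgroup.closure ({y, v} : Set X), ∃ w ∈ B, ∃ k : ℤ, x = w * y ^ k := by
  set c := ⁅y, v⁆ with hc
  have hcc : ∀ x, Commute x c := fun x => hcen y v x
  let f : X →* X := MonoidHom.mk' (fun x => ⁅y, x⁆) (fun a b => H3.ClassTwo.comm_mul_right (hcen y b a))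
  let g : X →* X := MonoidHom.mk' (fun x => ⁅x, v⁆) (fun a b => by
    change ⁅a * b, v⁆ = ⁅a, v⁆ * ⁅b, v⁆
    rw [H3.ClassTwo.comm_mul_left (hcen b v a)]
    exact hcen a v ⁅b, v⁆)
  have hfv : f v = c := rfl
  have hgy : g y = c := rfl
  have hvp : v ^ p = 1 := hBp v hv
  have hcp : c ^ p = 1 := by rw [← hfv, ← map_pow, hvp, map_one]
  have hcB : c ∈ B := hcv c (hcc v).symm.eq
  have hyB : y ∉ B := fun h => hyv (commutatorElement_eq_one_iff_mul_comm.2 (hB y h v hv))
  have hoc : orderOf c = p := orderOf_eq_prime hcp hyv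
  have hv1 : v ≠ 1 := by
    rintro rfl
    exact hyv (commutatorElement_one_right y)
  have hy1 : y ≠ 1 := by
    rintro rfl
    exact hyB B.one_mem
  have hov : orderOf v = p := orderOf_eq_prime hvp hv1
  have hoy : orderOf y = p := orderOf_eq_prime hyp hy1
  have hdvd : ∀ k : ℤ, c ^ k = 1 → (p : ℤ) ∣ k := by
    intro k hk
    rw [← hoc]; exact orderOf_dvd_iff_zpow_eq_one.2 hk
  have hpow : ∀ (w : X), w ^ p = 1 → ∀ k : ℤ, (p : ℤ) ∣ k → w ^ k = 1 := by
    rintro w hw k ⟨m, rfl⟩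
    rw [zpow_mul, zpow_natCast, hw, one_zpow]
  -- every element
  have hgen : ∀ x, ∃ b ∈ B, ∃ k : ℤ, x = b * y ^ k := by
    intro x
    obtain ⟨k, hk⟩ := hc1 x
    refine ⟨x * y ^ (-k), hcv _ ?_, k, by group⟩
    have h1 : g (x * y ^ (-k)) = 1 := by
      rw [map_mul, map_zpow, hgy]
      change ⁅x, v⁆ * c ^ (-k) = 1
      rw [← hk]; group
    exact commutatorElement_eq_one_iff_mul_comm.1 h1
  have hgB : ∀ b ∈ B, g b = 1 := fun b hb => commutatorElement_eq_one_iff_mul_comm.2 (hB b hb v hv)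
  have hyk : ∀ k : ℤ, y ^ k ∈ B → y ^ k = 1 := by
    intro k hk
    have h1 := hgB _ hk
    rw [map_zpow, hgy] at h1
    exact hpow y hyp k (hdvd k h1)
  -- the subgroups
  set K := B ⊓ f.ker with hK
  have hKc : ∀ a ∈ K, ∀ x, a * x = x * a := by
    rintro a ⟨ha, hfa⟩ x
    obtain ⟨b, hb, k, rfl⟩ := hgen x
    have h1 : Commute y a := commutatorElement_eq_one_iff_mul_comm.1 (MonoidHom.mem_ker.1 hfa)
    have h2 : Commute b a := hB b hb a ha
    exact (h2.mul_left (h1.zpow_left k)).symm.eq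
  have hKe : IsElementaryAbelian p K :=
    ⟨⟨⟨fun a b => Subtype.ext (hKc a a.2 b)⟩⟩, fun a ha => hBp a ha.1⟩
  have hcK : Subgroup.zpowers c ≤ K := by
    rw [Subgroup.zpowers_le]
    exact ⟨hcB, MonoidHom.mem_ker.2 (commutatorElement_eq_one_iff_mul_comm.2 (hcc y).eq)⟩
  obtain ⟨A, hAK, hcA, hcAK⟩ := H29.Elem.exists_compl hKe hcK
  have hcn : (Subgroup.zpowers c).Normal := ⟨fun n hn x => by
    have h1 := hKc n (hcK hn) x
    rw [← h1, mul_inv_cancel_right]
    exact hn⟩
  set V := Subgroup.zpowers c ⊔ Subgroup.zpowers v with hV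
  have hVmem : ∀ {w}, w ∈ V ↔ ∃ i j : ℤ, c ^ i * v ^ j = w := by
    intro w
    rw [hV, Subgroup.mem_sup_of_normal_left]
    constructor
    · rintro ⟨_, ⟨i, rfl⟩, _, ⟨j, rfl⟩, h⟩
      exact ⟨i, j, h⟩
    · rintro ⟨i, j, h⟩
      exact ⟨_, ⟨i, rfl⟩, _, ⟨j, rfl⟩, h⟩
  have hVB : V ≤ B := sup_le (by rw [Subgroup.zpowers_le]; exact hcB) (by rw [Subgroup.zpowers_le]; exact hv)
  have hVn : V.Normal := ⟨fun n hn x => by
    obtain ⟨i, j, rfl⟩ := hVmem.1 hn
    obtain ⟨k, hk⟩ := hc1 x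
    have h1 : x * v * x⁻¹ = c ^ k * v := by rw [hk, commutatorElement_def]; group
    have h2 : x * (c ^ i * v ^ j) * x⁻¹ = c ^ i * (x * v * x⁻¹) ^ j := by
      rw [conj_zpow]
      have h3 := ((hcc x).zpow_right i).eq
      calc x * (c ^ i * v ^ j) * x⁻¹ = (x * c ^ i) * v ^ j * x⁻¹ := by group
        _ = (c ^ i * x) * v ^ j * x⁻¹ := by rw [h3]
        _ = c ^ i * (x * v ^ j * x⁻¹) := by group
    rw [h2, h1]
    have hcV : c ∈ V := Subgroup.mem_sup_left (Subgroup.mem_zpowers c)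
    have hvV : v ∈ V := Subgroup.mem_sup_right (Subgroup.mem_zpowers v)
    exact V.mul_mem (V.zpow_mem hcV i) (V.zpow_mem (V.mul_mem (V.zpow_mem hcV k) hvV) j)⟩
  have hE : Subgroup.closure ({y, v} : Set X) = V ⊔ Subgroup.zpowers y := by
    apply le_antisymm
    · rw [Subgroup.closure_le]
      rintro x (rfl | hx)
      · exact Subgroup.mem_sup_right (Subgroup.mem_zpowers _)
      · rw [Set.mem_singleton_iff] at hx
        subst hx
        exact Subgroup.mem_sup_left (Subgroup.mem_sup_right (Subgroup.mem_zpowers _))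
    · have h1 : y ∈ Subgroup.closure ({y, v} : Set X) := Subgroup.subset_closure (by simp)
      have h2 : v ∈ Subgroup.closure ({y, v} : Set X) := Subgroup.subset_closure (by simp)
      refine sup_le (sup_le ?_ ?_) ?_ <;> rw [Subgroup.zpowers_le]
      · rw [hc, commutatorElement_def]
        exact mul_mem (mul_mem (mul_mem h1 h2) (inv_mem h1)) (inv_mem h2)
      · exact h2
      · exact h1
  have hEmem : ∀ {x}, x ∈ Subgroup.closure ({y, v} : Set X) ↔ ∃ w ∈ V, ∃ k : ℤ, w * y ^ k = x := by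
    intro x
    rw [hE, Subgroup.mem_sup_of_normal_left]
    constructor
    · rintro ⟨w, hw, _, ⟨k, rfl⟩, h⟩
      exact ⟨w, hw, k, h⟩
    · rintro ⟨w, hw, k, h⟩
      exact ⟨w, hw, _, ⟨k, rfl⟩, h⟩
  have hcv2 : Subgroup.zpowers c ⊓ Subgroup.zpowers v = ⊥ := by
    rw [eq_bot_iff]
    rintro _ ⟨⟨i, rfl⟩, ⟨j, hj⟩⟩
    simp only at hj
    have h1 : f (c ^ i) = 1 := (hcK ⟨i, rfl⟩ : c ^ i ∈ K).2
    rw [← hj, map_zpow, hfv] at h1
    rw [Subgroup.mem_bot]
    change c ^ i = 1
    rw [← hj]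
    exact hpow v hvp j (hdvd j h1)
  refine ⟨A, fun a ha x => hKc a (hAK ha) x, fun a ha => hBp a (hAK ha).1, ?_, ?_, ?_, ?_⟩
  · rw [eq_bot_iff]
    rintro a ⟨haA, haE⟩
    obtain ⟨w, hw, k, rfl⟩ := hEmem.1 haE
    have h1 : y ^ k ∈ B := by
      have := B.mul_mem (B.inv_mem (hVB hw)) (hAK haA).1
      simpa using this
    rw [hyk k h1, mul_one] at haA ⊢
    obtain ⟨i, j, rfl⟩ := hVmem.1 hw
    have h2 : f (c ^ i * v ^ j) = 1 := (hAK haA).2
    have h3 : f (c ^ i) = 1 := (hcK ⟨i, rfl⟩ : c ^ i ∈ K).2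
    rw [map_mul, map_zpow f v, hfv, h3, one_mul] at h2
    rw [hpow v hvp j (hdvd j h2), mul_one] at haA ⊢
    rw [← hcA]
    exact ⟨⟨i, rfl⟩, haA⟩
  · rw [eq_top_iff]
    intro x _
    obtain ⟨b, hb, k, rfl⟩ := hgen x
    obtain ⟨j, hj⟩ := hc2 b
    have hbK : b * v ^ (-j) ∈ K := by
      refine ⟨B.mul_mem hb (B.zpow_mem hv _), ?_⟩
      have h0 : f (b * v ^ (-j)) = 1 := by
        rw [map_mul, map_zpow, hfv]
        change ⁅y, b⁆ * c ^ (-j) = 1
        rw [← hj]; group
      exact h0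
    rw [← hcAK, Subgroup.mem_sup_of_normal_left] at hbK
    obtain ⟨_, ⟨i, rfl⟩, a, ha, hba⟩ := hbK
    have h1 : b * y ^ k = a * (c ^ i * v ^ j * y ^ k) := by
      have h2 : b = c ^ i * a * v ^ j := by
        simp only at hba
        rw [hba]; group
      rw [h2, ← hKc a (hAK ha) (c ^ i)]
      group
    rw [h1]
    exact Subgroup.mul_mem _ (Subgroup.mem_sup_left ha)
      (Subgroup.mem_sup_right (hEmem.2 ⟨_, hVmem.2 ⟨i, j, rfl⟩, k, rfl⟩))
  · have h1 : IsComplIn (Subgroup.zpowers c) (Subgroup.zpowers v) V := by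
      refine ⟨le_sup_left, le_sup_right, hcv2, fun m hm => ?_⟩
      obtain ⟨i, j, h⟩ := hVmem.1 hm
      exact ⟨_, ⟨i, rfl⟩, _, ⟨j, rfl⟩, h.symm⟩
    have h2 : IsComplIn V (Subgroup.zpowers y) (Subgroup.closure ({y, v} : Set X)) := by
      refine ⟨by rw [hE]; exact le_sup_left, by rw [hE]; exact le_sup_right, ?_, fun m hm => ?_⟩
      · rw [eq_bot_iff]
        rintro _ ⟨hw, ⟨k, rfl⟩⟩
        exact hyk k (hVB hw)
      · obtain ⟨w, hw, k, h⟩ := hEmem.1 hm
        exact ⟨_, hw, _, ⟨k, rfl⟩, h.symm⟩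
    have h3 := card_compl h1 (by rw [Subgroup.normalizer_eq_top_iff.2 hcn]; exact le_top)
    have h4 := card_compl h2 (by rw [Subgroup.normalizer_eq_top_iff.2 hVn]; exact le_top)
    rw [h4, h3, Nat.card_zpowers, Nat.card_zpowers, Nat.card_zpowers, hoc, hov, hoy]
    ring
  · intro x hx
    obtain ⟨w, hw, k, h⟩ := hEmem.1 hx
    exact ⟨w, hVB hw, k, h.symm⟩

end grp

theorem shrink_grp (A : Type u) [Group A] [Finite A] : ∃ (B : Type) (_ : Group B), Nonempty (B ≃* A) := by
  obtain ⟨n, ⟨e⟩⟩ := Finite.exists_equiv_fin A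
  letI := e.symm.group
  exact ⟨Fin n, e.symm.group, ⟨e.symm.mulEquiv⟩⟩

theorem shrink_comm (A : Type u) [CommGroup A] [Finite A] : ∃ (B : Type) (_ : CommGroup B), Nonempty (B ≃* A) := by
  obtain ⟨n, ⟨e⟩⟩ := Finite.exists_equiv_fin A
  letI := e.symm.commGroup
  exact ⟨Fin n, e.symm.commGroup, ⟨e.symm.mulEquiv⟩⟩

section fin

variable {Ω : Type u} [Group Ω] {S : Subgroup Ω} [Finite S] {p : ℕ} [hp : Fact p.Prime]
variable {F : FusionSystem S} {P Z : Subgroup Ω} {R : Subgroup Ω} {α : MulAut R} {z z' : R}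

theorem Cf.final (C : Cf p S F P Z R α z z') :
    ∃ (A : Subgroup P) (y v : P), (∀ a ∈ A, ∀ x : P, a * x = x * a) ∧ (∀ a ∈ A, a ^ p = 1) ∧
      orderOf y = p ∧ orderOf v = p ∧ y * v ≠ v * y ∧
      Nonempty (P ≃* (Subgroup.closure ({y, v} : Set P)) × A) ∧
      Nat.card (Subgroup.closure ({y, v} : Set P)) = p ^ 3 ∧
      (p ≠ 2 → ∀ x ∈ Subgroup.closure ({y, v} : Set P), x ^ p = 1) := by
  have hPS := C.hP.1
  have hfP : Finite P := finite_of_le hPS
  obtain ⟨y, hy, hyR, hyp⟩ := C.exists_elt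
  have hcZ : ∀ a b : P, ((⁅a, b⁆ : P) : Ω) ∈ Z := fun a b => C.hcomm a a.2 b b.2
  have hcen : ∀ a b x : P, x * ⁅a, b⁆ = ⁅a, b⁆ * x := fun a b x =>
    Subtype.ext (C.hZS x (hPS x.2) _ (hcZ a b))
  set v : P := ⟨z', C.z'P⟩ with hv
  set y' : P := ⟨y, hy⟩ with hy'
  have hcv : ∀ x : P, x * v = v * x → x ∈ R.subgroupOf P := fun x hx =>
    C.cent_le x.2 (congrArg Subtype.val hx)
  have hyv : ⁅y', v⁆ ≠ 1 := fun h => hyR (hcv y' (commutatorElement_eq_one_iff_mul_comm.1 h))
  have hgen : ∀ a b : P, ∃ k : ℤ, ⁅y', v⁆ ^ k = ⁅a, b⁆ := by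
    intro a b
    obtain ⟨k, hk⟩ := prime_gen C.hZc (hcZ y' v) (fun h => hyv (Subtype.ext h)) (hcZ a b)
    exact ⟨k, Subtype.ext (by simpa using hk)⟩
  have hBp : ∀ a ∈ R.subgroupOf P, a ^ p = 1 := by
    intro a ha
    have h1 := C.R0_pow (x := ⟨a, ha⟩) a.2
    exact Subtype.ext (by
      have := congrArg Subtype.val h1
      simpa using this)
  have hyp' : y' ^ p = 1 := Subtype.ext (by simpa using hyp)
  obtain ⟨A, h1, h2, h3, h4, h5, h6⟩ := decomp (p := p) (R.subgroupOf P) (by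
      intro a ha b hb
      have h1 := C.R0_comm (x := ⟨a, ha⟩) (y := ⟨b, hb⟩) a.2 b.2
      exact Subtype.ext (by
        have h2 := congrArg Subtype.val h1
        exact h2)) hBp hcen (y := y') (v := v) (z'.2) hyp' hcv hyv
      (fun x => hgen x v) (fun x => hgen y' x)
  have hyv' : y' * v ≠ v * y' := fun h => hyv (commutatorElement_eq_one_iff_mul_comm.2 h)
  refine ⟨A, y', v, h1, h2, ?_, ?_, hyv', ?_, h5, ?_⟩
  · apply orderOf_eq_prime hyp'
    intro h
    rw [h, one_mul, mul_one] at hyv'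
    exact hyv' rfl
  · apply orderOf_eq_prime (hBp v z'.2)
    intro h
    rw [h, one_mul, mul_one] at hyv'
    exact hyv' rfl
  · apply prod_iso
    · rw [inf_comm]; exact h3
    · intro a _ b hb
      exact (h1 b hb a).symm
    · rw [sup_comm]; exact h4
  · intro hp2 x hx
    obtain ⟨w, hw, k, rfl⟩ := h6 x hx
    have hc : ⁅y' ^ k, w⁆ ^ p = 1 := by
      apply Subtype.ext
      have := prime_pow C.hZc (hcZ (y' ^ k) w)
      simpa using this
    rw [H3.ClassTwo.mul_pow_eq (hcen _ _ w).symm (hcen _ _ (y' ^ k)).symm, hBp w hw, one_mul,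
      ← zpow_natCast (y' ^ k), zpow_comm, zpow_natCast, hyp', one_zpow, one_mul]
    obtain ⟨c, hc'⟩ := H3.ClassTwo.prime_dvd_choose_two hp.out hp2
    rw [hc', pow_mul, hc, one_pow]

/-- the `Dat` of a generalized extraspecial strongly closed subgroup -/
theorem dat_of (hS : IsPGroup p S) (F : FusionSystem S) (hF : F.IsSaturated p) (P : Subgroup Ω)
    (hP : F.StronglyClosed P) (hge : frattini ↥P = commutator ↥P ∧ Nat.card ↥(commutator ↥P) = p) :
    Dat p S F P ((commutator ↥P).map P.subtype) := by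
  have hPS := hP.1
  have hfP : Finite P := finite_of_le hPS
  have hPp : IsPGroup p P := hS.to_le hPS
  have hZP : (commutator ↥P).map P.subtype ≤ P := Subgroup.map_subtype_le _
  have hZc : Nat.card ((commutator ↥P).map P.subtype) = p := by
    rw [Subgroup.card_map_of_injective P.subtype_injective, hge.2]
  have hcomm : ∀ x ∈ P, ∀ y ∈ P, ⁅x, y⁆ ∈ (commutator ↥P).map P.subtype := by
    intro x hx y hy
    exact ⟨⁅(⟨x, hx⟩ : P), (⟨y, hy⟩ : P)⁆, Subgroup.commutator_mem_commutator trivial trivial, rfl⟩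
  have hN : S ≤ Subgroup.normalizer (P : Set Ω) := by
    intro s hs
    rw [Subgroup.mem_normalizer_iff]
    intro x
    constructor
    · intro hx
      exact stronglyClosed_apply_mem hP (F.conj_mem le_rfl hs) (x := ⟨x, hPS hx⟩) hx
    · intro hx
      have hx' : s * x * s⁻¹ ∈ S := hPS hx
      have := stronglyClosed_apply_mem hP (F.conj_mem le_rfl (S.inv_mem hs)) (x := ⟨_, hx'⟩) hx
      simpa [conjHom, mul_assoc] using this
  have hZeq : (commutator ↥P).map P.subtype = ⁅P, P⁆ := by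
    rw [_root_.commutator_def, Subgroup.map_commutator, ← MonoidHom.range_eq_map, Subgroup.range_subtype]
  have hZn : ∀ s ∈ S, ∀ w ∈ (commutator ↥P).map P.subtype, s * w * s⁻¹ ∈ (commutator ↥P).map P.subtype := by
    rw [hZeq]
    intro s hs w hw
    have h1 : ⁅P, P⁆ ≤ (⁅P, P⁆ : Subgroup Ω).comap (MulAut.conj s).toMonoidHom := by
      rw [Subgroup.commutator_le]
      intro x hx y hy
      rw [Subgroup.mem_comap, map_commutatorElement]
      exact Subgroup.commutator_mem_commutator ((Subgroup.mem_normalizer_iff.1 (hN hs) x).1 hx)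
        ((Subgroup.mem_normalizer_iff.1 (hN hs) y).1 hy)
    exact h1 hw
  set Z := (commutator ↥P).map P.subtype with hZ
  have hZS : Z ≤ S := hZP.trans hPS
  have hn : (Z.subgroupOf S).Normal := ⟨fun w hw s => by
    rw [Subgroup.mem_subgroupOf] at hw ⊢
    exact hZn s s.2 w hw⟩
  have hcenS := H3.OmegaRankTwo.le_center_of_card_le hS (Z.subgroupOf S)
    ((Nat.card_congr (Subgroup.subgroupOfEquivOfLe hZS).toEquiv).le.trans hZc.le)
  exact
    { hS := hS
      hF := hF
      hP := hP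
      hZP := hZP
      hZc := hZc
      hcomm := hcomm
      hpow := by
        intro x hx
        have h1 := H1.Frat.pow_mem_frattini hPp (⟨x, hx⟩ : P)
        rw [hge.1] at h1
        exact ⟨_, h1, rfl⟩
      hZS := by
        intro s hs w hw
        have h2 := hcenS (show (⟨w, hZS hw⟩ : S) ∈ Z.subgroupOf S from hw)
        exact congrArg Subtype.val (Subgroup.mem_center_iff.1 h2 ⟨s, hs⟩)
      hnab := by
        by_contra hcon
        push Not at hcon
        have h1 : commutator ↥P = ⊥ := by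
          rw [_root_.commutator_def, Subgroup.commutator_eq_bot_iff_le_centralizer]
          intro a _
          exact Subgroup.mem_centralizer_iff.2 fun b _ => Subtype.ext (hcon b b.2 a a.2)
        have h2 := hge.2
        rw [h1, Subgroup.card_bot] at h2
        exact hp.out.one_lt.ne h2 }

theorem main (hS : IsPGroup p S) (F : FusionSystem S) (hF : F.IsSaturated p) (P : Subgroup Ω)
    (hP : F.StronglyClosed P) (hge : frattini ↥P = commutator ↥P ∧ Nat.card ↥(commutator ↥P) = p)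
    (h2 : p = 2 → ¬ ∃ (A : Type) (_ : CommGroup A), (∀ a : A, a ^ 2 = 1) ∧ Nonempty (↥P ≃* DihedralGroup 4 × A))
    (hodd : p ≠ 2 → ¬ ∃ (E : Type) (_ : Group E) (A : Type) (_ : CommGroup A), Cfsg.IsExtraspecial p E ∧
      Nat.card E = p ^ 3 ∧ Monoid.exponent E = p ∧ (∀ a : A, a ^ p = 1) ∧ Nonempty (↥P ≃* E × A)) :
    F.IsNormal P := by
  have D := dat_of hS F hF P hP hge
  have hfP : Finite P := finite_of_le hP.1
  refine isNormal_of_essential hS hF ?_
  rintro R (rfl | hR)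
  · exact ⟨hP.1, fun α hα x hx => stronglyClosed_apply_mem hP ((mem_autGroup F le_rfl).1 hα) hx⟩
  · refine ⟨?_, fun α hα x hx => stronglyClosed_apply_mem hP ((mem_autGroup F hR.1.1).1 hα) hx⟩
    by_contra hPR
    obtain ⟨α, z, z', C⟩ := D.exists_cf hR hPR
    obtain ⟨A, y, v, hA, hAp, hoy, hov, hne, ⟨e⟩, hcard, hexp⟩ := C.final
    have hAcomm : ∀ a b : A, a * b = b * a := fun a b => Subtype.ext (hA a a.2 b)
    let iA : CommGroup A := { (inferInstance : Group A) with mul_comm := hAcomm }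
    obtain ⟨B, iB, ⟨eB⟩⟩ := shrink_comm A
    have hBp : ∀ b : B, b ^ p = 1 := by
      intro b
      apply eB.injective
      rw [map_pow, map_one]
      exact Subtype.ext (by simpa using hAp _ (eB b).2)
    by_cases hp2 : p = 2
    · apply h2 hp2
      subst hp2
      have hyv : y ≠ v := by
        rintro rfl
        exact hne rfl
      obtain ⟨e2⟩ := H5.DihedralLift.closure_involutions_equiv hoy hov hyv
      have h4 : orderOf (y * v) = 4 := by
        have := H5.DihedralLift.card_closure_involutions hoy hov hyv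
        rw [hcard] at this
        omega
      rw [h4] at e2
      exact ⟨B, iB, hBp, ⟨e.trans (MulEquiv.prodCongr e2 eB.symm)⟩⟩
    · apply hodd hp2
      set E := Subgroup.closure ({y, v} : Set P) with hE
      obtain ⟨E', iE, ⟨eE⟩⟩ := shrink_grp E
      have hfE : Finite E' := Finite.of_equiv _ eE.symm.toEquiv
      have hcE : Nat.card E' = p ^ 3 := by rw [Nat.card_congr eE.toEquiv, hcard]
      have hxE : ∀ x : E', x ^ p = 1 := by
        intro x
        apply eE.injective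
        rw [map_pow, map_one]
        exact Subtype.ext (by simpa using hexp hp2 _ (eE x).2)
      have hyE : y ∈ E := Subgroup.subset_closure (by simp)
      have hvE : v ∈ E := Subgroup.subset_closure (by simp)
      have hnc : ¬ IsMulCommutative E' := by
        intro h
        apply hne
        have h1 := h.is_comm.comm (eE.symm ⟨y, hyE⟩) (eE.symm ⟨v, hvE⟩)
        have h3 := congrArg eE h1
        rw [map_mul, map_mul, MulEquiv.apply_symm_apply, MulEquiv.apply_symm_apply] at h3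
        exact congrArg Subtype.val h3
      refine ⟨E', iE, B, iB, ?_, hcE, ?_, hBp, ⟨e.trans (MulEquiv.prodCongr eE.symm eB.symm)⟩⟩
      · apply H3.Extraspecial.isExtraspecial_of (H28.PCube.commutator_eq_center hcE hnc).le
          (H28.PCube.card_center hcE hnc)
        by_contra hcon
        push Not at hcon
        exact hnc ⟨⟨fun a b => commutatorElement_eq_one_iff_mul_comm.1 (hcon a b)⟩⟩
      · have h1 : Monoid.exponent E' ∣ p := Monoid.exponent_dvd_of_forall_pow_eq_one hxE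
        rcases (Nat.dvd_prime hp.out).1 h1 with h3 | h3
        · exfalso
          apply hnc
          refine ⟨⟨fun a b => ?_⟩⟩
          have h5 : ∀ x : E', x = 1 := fun x => by
            have := Monoid.pow_exponent_eq_one x
            rwa [h3, pow_one] at this
          rw [h5 a, h5 b]
        · exact h3

end fin

end H30.SCX
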